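import Cfsg.Agent.H5.Syl1
import Cfsg.Agent.H5.Tw5

/-! Centralizers of unipotent elements. -/

set_option autoImplicit false

namespace H5
namespace Chev

open Cfsg Cfsg.Lie Cfsg.Lie.ChevalleyDatum Equiv

variable {D : ChevalleyDatum} {F : Type*} [Field F] [Good D] {G : Type*} [Group G]

theorem stab_WJ {lam : Lat D} (hl : ∀ i, 0 ≤ lam i) {w : Wg D} (h : act w lam = lam) :
    w ∈ WJ {i | lam i = 0} := by
  refine ((fold1 D).stab_iff (K := Set.univ) hl (Set.subset_univ _) (fun _ _ h => h)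
    fun a ha => funext fun j => ?_).1 ⟨?_, h⟩
  · exact (act_σ a lam j).trans (by rw [show lam a = 0 from ha, mul_zero, sub_zero])
  · obtain ⟨l, rfl⟩ := (wgen D).gen w
    exact wp_mem_closure (l := l) fun _ _ => trivial

theorem lf_pair (r s : Rt D) : lf (fun i => pair r (simple i)) (vec s) = pair r s := by
  conv_rhs => rw [← pv_vec, vec_eq_sum s, map_sum]
  simp only [lf_apply, map_smul, pv_vec, smul_eq_mul, mul_comm]

theorem act_pair2 {w : Wg D} {r s : Rt D} (hr : w r = r) (hs : w s = s) (a b : ℤ) :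
    act w (fun i => a * pair r (simple i) + b * pair s (simple i)) =
      fun i => a * pair r (simple i) + b * pair s (simple i) := by
  funext i
  have h1 := lf_pair r (w⁻¹ (simple i))
  have h2 := lf_pair s (w⁻¹ (simple i))
  rw [← wg_pair w, hr, ← wg_mul_apply, mul_inv_cancel] at h1
  rw [← wg_pair w, hs, ← wg_mul_apply, mul_inv_cancel] at h2
  simp only [act, lf_apply] at h1 h2 ⊢
  simp only [add_mul, mul_assoc, Finset.sum_add_distrib, ← Finset.mul_sum, h1, h2]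
  rfl

theorem fix_WJ {w : Wg D} {r : Rt D} (hr : w r = r) (h : ∀ i, 0 ≤ wt r i) : w ∈ WJ {i | wt r i = 0} := by
  have := stab_WJ (fun i => ?_) (act_pair2 hr hr 1 0)
  · simpa only [one_mul, zero_mul, add_zero, pair_eq_zero_comm (r := r), pair_simple] using this
  · rw [one_mul, zero_mul, add_zero]
    rcases (h i).eq_or_lt with e | e
    · exact (pair_eq_zero_comm.1 ((pair_simple i r).trans e.symm)).ge
    · exact (pair_pos_comm.1 (by rwa [pair_simple])).le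

/-- no sum of two roots from `r₀` on is a root -/
def Free (r₀ : Rt D) : Prop := ∀ k : Rt D, ordf (vec k) < 2 * ordf (vec r₀)

theorem free_of_chk {r₀ : Rt D}
    (h : ∀ k < D.nroots, (Good.T D).ord k < 2 * (Good.T D).ord r₀) : Free r₀ := fun k => by
  rw [ordf_T, ordf_T]; exact h k k.2

theorem Free.pos {r₀ r : Rt D} (h : Free r₀) (hr : r₀ ≤ r) : Pos r := by
  have := h r₀
  have := ord_strictMono.monotone hr
  rw [pos_iff_ord]; omega

theorem Free.not_btw {r₀ r s : Rt D} (h : Free r₀) (hr : r₀ ≤ r) (hs : r₀ ≤ s) (k : Rt D) :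
    ¬ Btw r s k := fun hk => by
  have := hk.le (pos_iff_ord.1 (h.pos hr)).le (pos_iff_ord.1 (h.pos hs)).le
  have h1 := ord_strictMono.monotone hr
  have h2 := ord_strictMono.monotone hs
  have := h k
  omega

theorem Free.nil {r₀ : Rt D} (h : Free r₀) {C : Set (Rt D)} (hC : ∀ r ∈ C, r₀ ≤ r) : Nil ordf C :=
  nil_pos.sub (fun r hr => h.pos (hC r hr)) fun r hr s hs k hk =>
    absurd hk (h.not_btw (hC r hr) (hC s hs) k)

theorem not_btw_top {r s : Rt D} (hr : ∀ k, k ≤ r) (hs : Pos s) (k : Rt D) : ¬ Btw r s k := fun hk => by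
  have h1 : Pos r := by
    rw [pos_iff_ord] at hs ⊢; exact hs.trans_le (ord_strictMono.monotone (hr s))
  exact absurd (ord_lt_iff.1 (nil_pos.btw h1 hs hk).2.1) (not_lt.2 (hr k))

/-- commutators of the roots in `L` with positive roots lie in `C` modulo `p` -/
noncomputable def chkMod (T : Fast) (p : ℕ) (L C : List ℕ) : Bool :=
  allL L fun r => band (Nat.ble T.n (Nat.mul 2 r)) <| allLt T.n fun s => bor (Nat.blt (Nat.mul 2 s) T.n)
    (allL (Fast.cterms T.ce r s) fun e => bor (memL e.1 C) (zeq (e.2.1 % p) 0))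

namespace StSys

variable (S : StSys D F G)

theorem comm_mem_mod {p : ℕ} [CharP F p] {C : Set (Rt D)} {r s : Rt D} (h2 : s ≠ neg r)
    (h : ∀ e ∈ cts r s, e.1 ∈ C ∨ (p : ℤ) ∣ e.2.1) (t u : F) :
    (S.x s u)⁻¹ * (S.x r t)⁻¹ * S.x s u * S.x r t ∈ S.U C := by
  by_cases h1 : s = r
  · subst h1
    rw [mul_assoc, mul_assoc, (S.commute_x s u t).eq, inv_mul_cancel_left, inv_mul_cancel]
    exact one_mem _
  rw [S.comm' h1 h2]
  refine S.wd_mem fun q hq => ?_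
  obtain ⟨e, he, rfl⟩ := List.mem_map.1 hq
  rcases h e he with h | h
  · exact S.x_mem_U h _
  · simp [(CharP.intCast_eq_zero_iff F p _).2 h]

theorem comm_of_chk {p : ℕ} [CharP F p] {L C : List ℕ} (h : chkMod (Good.T D) p L C = true)
    (hC : C ⊆ L) {a b : G} (ha : a ∈ S.U {r | (r : ℕ) ∈ L}) (hb : b ∈ S.U {r | Pos r}) :
    b⁻¹ * a⁻¹ * b * a ∈ S.U {r | (r : ℕ) ∈ C} := by
  simp only [chkMod, allL_iff, allLt_iff, band_iff, bor_iff, n_eq, Nat.ble_eq, Nat.blt_eq, Nat.mul_eq,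
    memL_iff, zeq_iff] at h
  have h1 : ∀ r : Rt D, (r : ℕ) ∈ L → Pos r := fun r hr => pos_iff_le.2 (h r hr).1
  have h2 : ∀ r s : Rt D, (r : ℕ) ∈ L → Pos s → ∀ t u,
      (S.x s u)⁻¹ * (S.x r t)⁻¹ * S.x s u * S.x r t ∈ S.U {r | (r : ℕ) ∈ C} := fun r s hr hs =>
    S.comm_mem_mod (p := p) (nil_pos.ne_neg (h1 r hr) hs) fun e he => by
      refine (((h r hr).2 s s.2).resolve_left (not_lt.2 (pos_iff_le.1 hs)) ((e.1 : ℕ), e.2) ?_).imp_right
        Int.dvd_of_emod_eq_zero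
      rw [cterms_T]; exact List.mem_map_of_mem he
  have h3 : ∀ s, Pos s → ∀ u, ∀ n ∈ S.U {r | (r : ℕ) ∈ C},
      S.x s u * n * (S.x s u)⁻¹ ∈ S.U {r | (r : ℕ) ∈ C} := fun s hs u => conj_mem_closure (by
    rintro _ ⟨r, hr, t, rfl⟩
    convert mul_mem (h2 r s (hC hr) hs (-t) (-u)) (S.x_mem_U hr t) using 1
    simp only [← S.x_inv]; group)
  have h4 : ∀ s, Pos s → ∀ u, ∀ n ∈ S.U {r | (r : ℕ) ∈ C},
      (S.x s u)⁻¹ * n * S.x s u ∈ S.U {r | (r : ℕ) ∈ C} ∧
      S.x s u * n * (S.x s u)⁻¹ ∈ S.U {r | (r : ℕ) ∈ C} := fun s hs u n hn =>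
    ⟨by simpa only [← S.x_inv, inv_inv] using h3 s hs (-u) n hn, h3 s hs u n hn⟩
  refine comm_mem_of_gen ?_ ?_ ?_ b hb a ha
  · rintro _ ⟨s, hs, u, rfl⟩; exact h4 s hs u
  · rintro _ ⟨s, hs, u, rfl⟩; exact h4 s (h1 s hs) u
  · rintro _ ⟨s, hs, u, rfl⟩ _ ⟨r, hr, t, rfl⟩; exact h2 r s hr hs t u

theorem central_of_chk {p : ℕ} [CharP F p] {r : Rt D} (h : chkMod (Good.T D) p [r] [] = true) (t : F)
    {b : G} (hb : b ∈ S.U {r | Pos r}) : Commute (S.x r t) b := by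
  have := S.comm_of_chk h (List.nil_subset _) (S.x_mem_U (r := r) (by simp) t) hb
  simp only [List.not_mem_nil, Set.ofPred_false, U_empty, Subgroup.mem_bot] at this
  rw [Commute, SemiconjBy, ← mul_one (S.x r t * b), ← this]; group

theorem central_top {r : Rt D} (hr : ∀ k, k ≤ r) (t : F) {b : G} (hb : b ∈ S.U {r | Pos r}) :
    Commute (S.x r t) b := by
  refine S.U_le_iff.2 (fun s hs u => ?_ : ∀ s ∈ {r | Pos r}, ∀ u, _ ∈ Subgroup.centralizer {S.x r t}) hb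
    _ rfl
  rintro _ rfl
  refine S.commute_of_not_btw (fun e => ?_) (not_btw_top hr hs) t u
  have h1 : Pos r := by
    rw [pos_iff_ord]; exact (pos_iff_ord.1 hs).trans_le (ord_strictMono.monotone (hr s))
  exact pos_neg_iff.1 (e ▸ hs) h1

theorem wd_eq_of_chk' (hπ : Function.Injective S.π) {p : ℕ} [CharP F p] (v : ℕ → F) {k : ℕ}
    {W W' : List (ℕ × Poly)}
    (h : chkEq p (Good.T D).xc (Nat.add (Good.T D).n (Good.T D).l) (List.replicate k 0) W W' = true)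
    {w w' : List (Rt D × F)} (h1 : (w.map fun p => ((p.1 : ℕ), p.2)) = evW v W)
    (h2 : (w'.map fun p => ((p.1 : ℕ), p.2)) = evW v W') : S.wd w = S.wd w' := by
  have := congrArg (grpSys D F).π (wd_eq_of_chk v h h1 h2)
  apply hπ
  rwa [π_wd, π_wd] at this ⊢

variable [Conn D]

theorem U_PhiJ_le {J : Set (Ix D)} {M : Subgroup G} (h1 : ∀ j ∈ J, ∀ t, S.x (simple j) t ∈ M)
    (h2 : ∀ j ∈ J, ∀ t, S.x (neg (simple j)) t ∈ M) : S.U (PhiJ J) ≤ M :=
  S.U_le_iff.2 (PhiJ_induction h1 fun i hi r _ h t => by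
    simpa using S.x_conj_of_mem (S.n_mem (h1 i hi) (h2 i hi) 1) h t)

theorem commute_n [CharP F 2] {r : Rt D} {j : Ix D} (h : wt r j = 0) (t : F) :
    Commute (S.x r t) (S.n (simple j) 1) := by
  have h1 := S.n_conj (simple j) r one_ne_zero t
  have h2 : sg F (simple j) r = 1 := by
    rcases mul_self_eq_one_iff.1 (sg_mul_self (F := F) (simple j) r) with e | e
    · exact e
    · rw [e, CharTwo.neg_eq]
  rw [rrefl_of_pair_eq_zero (by rwa [pair_simple]), h2, one_zpow, one_mul, one_mul] at h1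
  exact (mul_inv_eq_iff_eq_mul.1 h1).symm

theorem commute_neg {z : G} {r : Rt D} (h1 : ∀ t, Commute z (S.x r t)) (h2 : Commute z (S.n r 1))
    (t : F) : Commute z (S.x (neg r) t) := by
  have := S.n_conj_self r one_ne_zero (-t)
  rw [inv_one, one_pow, one_mul, neg_neg] at this
  rw [← this]
  exact (h2.mul_right (h1 _)).mul_right h2.inv_right

theorem cent_eq (hM : S.HMul) {z : G} {J : Set (Ix D)} {M : Subgroup G} (h0 : M ≤ S.U Set.univ)
    (h1 : ∀ g ∈ M, Commute z g) (h2 : S.U (PhiJ J) ≤ M)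
    (hw : ∀ u ∈ S.U {r | Pos r}, ∀ v ∈ S.U {r | Pos r}, ∀ n : S.N,
      n * (v * z * v⁻¹) * (n : G)⁻¹ = u⁻¹ * z * u → S.φ n ∈ WJ J)
    (hB : ∀ u ∈ S.U {r | Pos r}, ∀ c, u * z * u⁻¹ = hM.hp c * z * (hM.hp c)⁻¹ →
      u ∈ M ∧ ∀ i ∉ J, c i = 1) : S.U Set.univ ⊓ Subgroup.centralizer {z} = M := by
  refine le_antisymm ?_ (le_inf h0 fun g hg => Subgroup.mem_centralizer_singleton_iff.2 (h1 g hg).symm)
  rintro g ⟨hg, hz⟩
  obtain ⟨u, hu, n, v, hv, rfl⟩ := S.exists_bruhat' hg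
  have hz : u * n * v * z = z * (u * n * v) := Subgroup.mem_centralizer_singleton_iff.1 hz
  have h3 := hw u hu v (S.U_mono (fun _ h => h.1) hv) n (by
    rw [show (n : G) * (v * z * v⁻¹) * (n : G)⁻¹ = u⁻¹ * (u * n * v * z) * (v⁻¹ * (n : G)⁻¹) by group, hz]
    group)
  have hv' : v ∈ M := h2 (S.U_mono (fun r hr => (inv_subset_WJ h3 hr).2) hv)
  obtain ⟨l, hl, e⟩ := exists_word_of_mem_closure h3
  have hm : (S.nw l : G) ∈ M := by
    clear e
    induction l with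
    | nil => exact one_mem _
    | cons i l ih =>
      have hi := simple_mem_PhiJ.2 (hl i List.mem_cons_self)
      exact mul_mem (S.n_mem (fun t => h2 (S.x_mem_U hi t)) (fun t => h2 (S.x_mem_U (neg_mem_PhiJ.2 hi) t)) 1)
        (ih fun j hj => hl j (List.mem_cons_of_mem _ hj))
  obtain ⟨c, hc⟩ : ((S.nw l * n⁻¹ : S.N) : G) ∈ hM.hp.range := by
    rw [hM.range_hp, ← S.φ_eq_one_iff, map_mul, map_inv, φ_nw, e, mul_inv_cancel]
  have e1 : (n : G) = (hM.hp c)⁻¹ * S.nw l := by rw [hc]; simp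
  have h4 := (h1 _ (mul_mem hm hv')).eq
  obtain ⟨h5, h6⟩ := hB _ (S.H_conj_U (hM.hp_mem c) _ u hu) c (by
    rw [e1] at hz
    calc _ = hM.hp c * (u * ((hM.hp c)⁻¹ * S.nw l) * v * z) * (S.nw l * v)⁻¹ * hM.hp c * u⁻¹ *
        (hM.hp c)⁻¹ := by
          rw [show u * ((hM.hp c)⁻¹ * S.nw l) * v * z = u * (hM.hp c)⁻¹ * (S.nw l * v * z) by group,
            ← h4]; group
      _ = _ := by rw [hz]; group)
  have h7 : hM.hp c ∈ M := hM.hp_mem_of fun i => by
    by_cases hi : i ∈ J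
    · have hi := simple_mem_PhiJ.2 hi
      exact S.h_mem (fun t => h2 (S.x_mem_U hi t)) (fun t => h2 (S.x_mem_U (neg_mem_PhiJ.2 hi) t)) _
    · rw [h6 i hi, Units.val_one, h_one]; exact one_mem _
  convert mul_mem (mul_mem (mul_mem (inv_mem h7) h5) hm) hv' using 1
  rw [e1]; group

theorem inv_mem_of_conj {r₀ : Rt D} (h : Free r₀) {C : Set (Rt D)} (hC : ∀ r ∈ C, r₀ ≤ r) (n : S.N)
    {y y' : G} (hy : y ∈ S.U C) {r : Rt D} (hr : r ∈ C) {t : F} (ht : t ≠ 0) (hy' : y' ∈ S.U (C \ {r}))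
    (e : n * y * (n : G)⁻¹ = S.x r t * y') : (S.φ n)⁻¹ r ∈ C := by
  have h1 := S.conj_mem_inter (h.nil hC) (fun r hr => h.pos (hC r hr)) (h.nil hC).closed n hy
    (e ▸ mul_mem (S.x_mem_U hr t) (S.U_mono Set.sdiff_subset hy'))
  by_contra hc
  rw [e] at h1
  have h2 := S.U_mono (B := C \ {r}) (by
    rintro _ ⟨⟨s, hs, rfl⟩, h2⟩
    refine ⟨h2, fun e => hc ?_⟩
    rw [← e, ← wg_mul_apply, inv_mul_cancel]; exact hs) h1
  exact (S.mem_of_x_mem_U (h.nil fun r hr => hC r hr.1) ht ((mul_mem_cancel_right hy').1 h2)).2 rfl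

omit [Good D] [Conn D] in
theorem chi_single {r : Rt D} {i : Ix D} (h : ∀ j, wt r j = if j = i then 1 else 0) (c : Ix D → Fˣ) :
    chi c r = c i := by
  simp [chi, h, pow_ite]

theorem cent_root [CharP F 2] (hM : S.HMul) {r : Rt D} {i : Ix D}
    (h : ∀ j, wt r j = if j = i then 1 else 0)
    (hc : ∀ t, ∀ b ∈ S.U {r | Pos r}, Commute (S.x r t) b) :
    S.U Set.univ ⊓ Subgroup.centralizer {S.x r 1} =
      S.U {r | Pos r} ⊔ S.U {s | ∃ j ≠ i, s = neg (simple j)} := by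
  refine S.cent_eq hM (J := {j | j ≠ i}) (sup_le (S.U_mono (Set.subset_univ _))
    (S.U_mono (Set.subset_univ _))) (fun g hg => ?_) (S.U_PhiJ_le
      (fun j _ t => Subgroup.mem_sup_left (S.x_mem_U (pos_simple j) t))
      (fun j hj t => Subgroup.mem_sup_right (S.x_mem_U (by exact ⟨j, hj, rfl⟩) t))) ?_ ?_
  · refine (sup_le ?_ (S.U_le_iff.2 ?_) : _ ≤ Subgroup.centralizer {S.x r 1}) hg _ rfl
    · rintro b hb _ rfl; exact hc 1 b hb
    · rintro _ ⟨j, hj, rfl⟩ t _ rfl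
      exact S.commute_neg (fun t => hc 1 _ (S.x_mem_U (pos_simple j) t))
        (S.commute_n (by rw [h, if_neg hj]) 1) t
  · intro u hu v hv n e
    obtain ⟨γ, h1, -, h2⟩ := S.acts_φ n
    rw [← (hc 1 v hv).eq, mul_inv_cancel_right, mul_assoc u⁻¹, (hc 1 u hu).eq, inv_mul_cancel_left, h2] at e
    refine WJ_mono (fun j hj e => ?_) (fix_WJ (S.x_eq_x one_ne_zero e.symm).1.symm fun j => ?_)
    · simp [h, e] at hj
    · rw [h]; split_ifs <;> simp
  · intro u hu c e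
    rw [← (hc 1 u hu).eq, mul_inv_cancel_right, (hM.hp_spec c).2, chi_single h, mul_one] at e
    refine ⟨Subgroup.mem_sup_left hu, fun j hj => ?_⟩
    rw [not_not.1 hj]
    exact Units.ext (S.x_injective r e).symm

theorem sup_conj_top {p : ℕ} [Fact p.Prime] [CharP F p] [Finite F] {r : Rt D} (hr : ∀ k, k ≤ r) {g : G}
    (hg : g ∈ S.U Set.univ) : IsPGroup p ↥(S.U {r} ⊔ (S.U {r}).map (MulAut.conj g).toMonoidHom) ∨
      ∃ h ∈ S.U Set.univ, (S.U {r} ⊔ (S.U {r}).map (MulAut.conj g).toMonoidHom).map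
        (MulAut.conj h).toMonoidHom = S.U {r} ⊔ S.U {neg r} := by
  obtain ⟨u, hu, n, v, hv, rfl⟩ := S.exists_bruhat' hg
  have h1 : ∀ b ∈ S.U {r | Pos r}, (S.U {r}).map (MulAut.conj b).toMonoidHom = S.U {r} := fun b hb => by
    ext a
    simp only [Subgroup.mem_map, S.mem_U_singleton]
    constructor
    · rintro ⟨_, ⟨t, rfl⟩, rfl⟩
      exact ⟨t, mul_inv_eq_iff_eq_mul.2 (S.central_top hr t hb).symm⟩
    · rintro ⟨t, rfl⟩
      exact ⟨_, ⟨t, rfl⟩, mul_inv_eq_iff_eq_mul.2 (S.central_top hr t hb).symm⟩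
  have h2 : ∀ (K : Subgroup G) (a b : G), (K.map (MulAut.conj a).toMonoidHom).map
      (MulAut.conj b).toMonoidHom = K.map (MulAut.conj (b * a)).toMonoidHom := fun K a b => by
    rw [Subgroup.map_map, map_mul]; rfl
  have h3 : (S.U {r} ⊔ (S.U {r}).map (MulAut.conj (u * n * v)).toMonoidHom).map
      (MulAut.conj u⁻¹).toMonoidHom = S.U {r} ⊔ S.U {S.φ n r} := by
    rw [Subgroup.map_sup, h1 _ (inv_mem hu), h2, show u⁻¹ * (u * n * v) = n * v by group, ← h2,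
      h1 _ (S.U_mono (fun _ h => h.1) hv), (S.acts_φ n).map_U, Set.image_singleton]
  by_cases h : S.φ n r = neg r
  · exact Or.inr ⟨u⁻¹, inv_mem (S.U_mono (Set.subset_univ _) hu), h ▸ h3⟩
  · left
    obtain ⟨μ, a, b⟩ := exists_pos_pair r _ h
    obtain ⟨μ', h'⟩ := exists_nil (μ := μ) (fun r hr => hr) (closed_gt μ le_rfl)
    have h4 : IsPGroup p ↥(S.U {r} ⊔ S.U {S.φ n r}) := (S.isPGroup_U p h').to_le
      (sup_le (S.U_mono (Set.singleton_subset_iff.2 a)) (S.U_mono (Set.singleton_subset_iff.2 b)))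
    rw [← h3] at h4
    exact h4.of_equiv (Subgroup.equivMapOfInjective _ _ (MulAut.conj u⁻¹).injective).symm

end StSys

end Chev
end H5
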