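import Cfsg.Agent.H5.Cent1

/-! Centralizers of the remaining involutions of `G₂` and `F₄` in characteristic two. -/

set_option autoImplicit false

namespace H5
namespace Chev

open Cfsg Cfsg.Lie Cfsg.Lie.ChevalleyDatum Equiv

section General

variable {D : ChevalleyDatum} {F : Type*} [Field F] [Good D] {G : Type*} [Group G]

theorem StSys.exists_split (S : StSys D F G) {L : List (Rt D)} (hn : L.Nodup) (hL : ∀ r ∈ L, Pos r)
    {u : G} (hu : u ∈ S.U {r | Pos r}) :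
    ∃ t, ∃ m ∈ S.U {r | Pos r ∧ r ∉ L}, u = S.pr L t * m := by
  obtain ⟨t, rfl⟩ := S.exists_pr nil_pos
    (L := L ++ (List.finRange _).filter fun r => Pos r ∧ r ∉ L) (fun r => by
      by_cases h : r ∈ L <;> simp [h, hL]) (by
      refine hn.append ((List.nodup_finRange _).filter _) fun r h1 h2 => ?_
      simp [h1] at h2) hu
  exact ⟨t, _, S.pr_mem_U (fun r hr => by simpa using hr) t, S.pr_append _ _ _⟩

theorem StSys.conj_eq_mul (S : StSys D F G) {p : ℕ} [CharP F p] {L C : List ℕ}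
    (h : chkMod (Good.T D) p L C = true) (hC : C ⊆ L) {a b : G} (ha : a ∈ S.U {r | (r : ℕ) ∈ L})
    (hb : b ∈ S.U {r | Pos r}) : ∃ c ∈ S.U {r | (r : ℕ) ∈ C}, b⁻¹ * a * b = a * c :=
  ⟨_, inv_mem (S.comm_of_chk h hC ha hb), by group⟩

theorem wg_fix {w : Wg D} {r : Rt D} (h : w⁻¹ r = r) : w r = r := by
  conv_lhs => rw [← h, ← wg_mul_apply, mul_inv_cancel]
  rfl

/-- the Weyl part of a centralizing element, two-root version -/
theorem StSys.inv_mem2 [Conn D] (S : StSys D F G) {p : ℕ} [CharP F p] {L C : List ℕ} {r₀ r s : Rt D}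
    (h : chkMod (Good.T D) p L C = true) (hC : C ⊆ L) (h0 : Free r₀) (hL : ∀ a ∈ L, (r₀ : ℕ) ≤ a)
    (hr : (r : ℕ) ∈ L) (hs : (s : ℕ) ∈ L) (hr' : (r : ℕ) ∉ C) (hs' : (s : ℕ) ∉ C) (hrs : r ≠ s)
    {u v : G} (hu : u ∈ S.U {r | Pos r}) (hv : v ∈ S.U {r | Pos r}) {n : S.N}
    (e : n * (v * (S.x r 1 * S.x s 1) * v⁻¹) * (n : G)⁻¹ = u⁻¹ * (S.x r 1 * S.x s 1) * u) :
    (((S.φ n)⁻¹ r : Rt D) : ℕ) ∈ L ∧ (((S.φ n)⁻¹ s : Rt D) : ℕ) ∈ L := by
  have hz : S.x r 1 * S.x s 1 ∈ S.U {r | (r : ℕ) ∈ L} := mul_mem (S.x_mem_U hr 1) (S.x_mem_U hs 1)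
  obtain ⟨c, hc, e1⟩ := S.conj_eq_mul h hC hz hu
  obtain ⟨c', hc', e2⟩ := S.conj_eq_mul h hC hz (inv_mem hv)
  rw [inv_inv] at e2
  have h1 : v * (S.x r 1 * S.x s 1) * v⁻¹ ∈ S.U {r | (r : ℕ) ∈ L} :=
    e2 ▸ mul_mem hz (S.U_mono (fun _ h => hC h) hc')
  have h2 : ∀ a : Rt D, a ∈ {r : Rt D | (r : ℕ) ∈ L} → r₀ ≤ a := fun a ha => hL a ha
  constructor
  · refine S.inv_mem_of_conj h0 h2 n h1 hr one_ne_zero (y' := S.x s 1 * c) (mul_mem
      (S.x_mem_U (by exact ⟨hs, hrs.symm⟩) 1) (S.U_mono (fun a ha => Set.mem_sdiff_of_mem (hC ha) ?_) hc)) (by rw [e, e1, mul_assoc])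
    rintro rfl; exact hr' ha
  · refine S.inv_mem_of_conj h0 h2 n h1 hs one_ne_zero (y' := S.x r 1 * c) (mul_mem
      (S.x_mem_U (by exact ⟨hr, hrs⟩) 1) (S.U_mono (fun a ha => Set.mem_sdiff_of_mem (hC ha) ?_) hc)) ?_
    · rintro rfl; exact hs' ha
    · rw [e, e1, ← mul_assoc, (S.commute_of_not_btw (nil_pos.ne_neg (h0.pos (h2 r hr))
        (h0.pos (h2 s hs))) (h0.not_btw (h2 r hr) (h2 s hs)) 1 1).eq]

theorem StSys.commute_mod (S : StSys D F G) {p : ℕ} [CharP F p] {r s : Rt D} (h2 : s ≠ neg r)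
    (h : ∀ e ∈ D.commTerms r s, (p : ℤ) ∣ e.2.1) (t u : F) : Commute (S.x r t) (S.x s u) := by
  have := S.comm_mem_mod (p := p) (C := ∅) h2 (fun e he => Or.inr (h ((e.1 : ℕ), e.2) (by
    rw [commTerms_eq]; exact List.mem_map_of_mem he))) t u
  rw [StSys.U_empty, Subgroup.mem_bot] at this
  rw [Commute, SemiconjBy, ← mul_one (S.x r t * _), ← this]; group

theorem conj_mul2 (a x y : G) : a * (x * y) * a⁻¹ = a * x * a⁻¹ * (a * y * a⁻¹) := by group

end General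

variable {F : Type*} [Field F] [CharP F 2] {G : Type*} [Group G]

/-- roots of `G₂` -/
def rG2 (k : Fin 12) : Rt chevG2 := k

theorem cent_G2 (S : StSys chevG2 F G) (hπ : Function.Injective S.π) :
    S.U Set.univ ⊓ Subgroup.centralizer {S.x (rG2 9) 1} = S.U {r | (r : ℕ) ∈ [9, 10, 11, 6, 5]} := by
  have hM := S.hmul_of_injective hπ
  have h0 : Free (rG2 9) := free_of_chk (by decide +kernel)
  have hc : chkMod (Good.T chevG2) 2 [9, 10, 11] [10, 11] = true := by decide +kernel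
  have h1 : ∀ g ∈ S.U {r | (r : ℕ) ∈ [9, 10, 11, 6, 5]}, Commute (S.x (rG2 9) 1) g := fun g hg => by
    refine (S.U_le_iff.2 fun s hs t _ e => ?_ : _ ≤ Subgroup.centralizer {S.x (rG2 9) 1}) hg _ rfl
    have : ∀ s : Rt chevG2, (s : ℕ) ∈ [9, 10, 11, 6, 5] → s ≠ neg (rG2 9) ∧
      ∀ e ∈ chevG2.commTerms (rG2 9) s, ((2 : ℕ) : ℤ) ∣ e.2.1 := by decide +kernel
    rw [e]; exact S.commute_mod (this s hs).1 (this s hs).2 1 t
  refine S.cent_eq hM (J := {⟨1, by decide⟩}) (S.U_mono (Set.subset_univ _)) h1 (S.U_PhiJ_le ?_ ?_) ?_ ?_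
  · rintro _ rfl t; exact S.x_mem_U (by decide) t
  · rintro _ rfl t; exact S.x_mem_U (by decide) t
  · intro u hu v hv n e
    have hz : S.x (rG2 9) 1 ∈ S.U {r | (r : ℕ) ∈ [9, 10, 11]} := S.x_mem_U (by decide) 1
    obtain ⟨c, hc', e1⟩ := S.conj_eq_mul hc (by decide) hz hu
    obtain ⟨c', hc'', e2⟩ := S.conj_eq_mul hc (by decide) hz (inv_mem hv)
    rw [inv_inv] at e2
    have h2 := S.inv_mem_of_conj h0 (C := {r | (r : ℕ) ∈ [9, 10, 11]}) (by decide) n
      (e2 ▸ mul_mem hz (S.U_mono (fun r => by revert r; decide) hc'')) (by decide) one_ne_zero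
      (S.U_mono (fun r => by revert r; decide) hc') (e.trans e1)
    have h3 : ∀ r : Rt chevG2, (r : ℕ) ∈ [9, 10, 11] → ln r = ln (rG2 9) → r = rG2 9 := by
      decide +kernel
    refine WJ_mono (fun j => ?_) (fix_WJ (wg_fix (h3 _ h2 (wg_ln _ _))) (by decide +kernel))
    revert j; decide +kernel
  · intro u hu c e
    obtain ⟨t, m, hm, rfl⟩ := S.exists_split (L := [rG2 7, rG2 8]) (by decide) (by decide +kernel) hu
    have hm' : m ∈ S.U {r | (r : ℕ) ∈ [9, 10, 11, 6, 5]} := S.U_mono (fun r => by revert r; decide +kernel) hm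
    have h2 : S.wd [(rG2 7, t (rG2 7)), (rG2 8, t (rG2 8)), (rG2 9, 1)] =
        S.wd [(rG2 9, 1), (rG2 10, t (rG2 7)), (rG2 11, t (rG2 8)), (rG2 7, t (rG2 7)), (rG2 8, t (rG2 8))] :=
      S.wd_eq_of_chk' hπ (p := 2) (ptL [t (rG2 7), t (rG2 8)]) (k := 2)
        (W := [(7, [(1, [1])]), (8, [(1, [0, 1])]), (9, [(1, [])])])
        (W' := [(9, [(1, [])]), (10, [(1, [1])]), (11, [(1, [0, 1])]), (7, [(1, [1])]), (8, [(1, [0, 1])])])
        (by decide +kernel) (by simp [evW, evM, ptL, rG2]) (by simp [evW, evM, ptL, rG2])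
    rw [(hM.hp_spec c).2, StSys.chi_single (i := ⟨0, by decide⟩) (by decide +kernel), mul_inv_rev,
      mul_assoc _ m, ← (h1 m hm').eq, ← mul_assoc, ← mul_assoc, mul_inv_cancel_right] at e
    have h3 := S.wd_inj nil_pos (w := [(rG2 9, 1), (rG2 10, t (rG2 7)), (rG2 11, t (rG2 8))])
      (w' := [(rG2 9, c ⟨0, by decide⟩ * 1), (rG2 10, 0), (rG2 11, 0)]) rfl
      (by simp only [List.map_cons, List.map_nil]; decide)
      (by simp only [List.map_cons, List.map_nil]; decide +kernel) (by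
        simp only [StSys.wd_cons, StSys.wd_nil, StSys.pr_cons, StSys.pr_nil, mul_one, StSys.x_zero] at *
        rw [← e, mul_assoc (S.x (rG2 7) _), h2]; group)
    simp only [List.cons.injEq, Prod.mk.injEq, true_and, and_true, mul_one] at h3
    refine ⟨by simpa [h3.2.1, h3.2.2] using hm', fun i hi => ?_⟩
    have : ∀ i : Fin 2, i ≠ 1 → i = 0 := by decide
    rw [this i hi]; exact Units.ext h3.1.symm

/-- roots of `F₄` -/
def rF4 (k : Fin 48) : Rt chevF4 := k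

theorem cent_F4a (S : StSys chevF4 F G) (hM : S.HMul) :
    S.U Set.univ ⊓ Subgroup.centralizer {S.x (rF4 47) 1 * S.x (rF4 44) 1} =
      S.U {r | Pos r ∨ (r : ℕ) ∈ [20, 22]} := by
  have h0 : Free (rF4 44) := free_of_chk (by decide +kernel)
  have hc : chkMod (Good.T chevF4) 2 [47, 44] [] = true := by decide +kernel
  have c1 : ∀ b ∈ S.U {r | Pos r}, Commute (S.x (rF4 47) 1 * S.x (rF4 44) 1) b := fun b hb =>
    (S.central_of_chk (p := 2) (by decide +kernel) 1 hb).mul_left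
      (S.central_of_chk (p := 2) (by decide +kernel) 1 hb)
  have h1 : ∀ g ∈ S.U {r | Pos r ∨ (r : ℕ) ∈ [20, 22]},
      Commute (S.x (rF4 47) 1 * S.x (rF4 44) 1) g := fun g hg => by
    refine (S.U_le_iff.2 fun s hs t _ e => ?_ : _ ≤ Subgroup.centralizer {_}) hg _ rfl
    rw [e]
    rcases hs with hs | hs
    · exact c1 _ (S.x_mem_U hs t)
    · have : ∀ s : Rt chevF4, (s : ℕ) ∈ [20, 22] → ∃ j : Ix chevF4, s = neg (simple j) ∧
        wt (rF4 47) j = 0 ∧ wt (rF4 44) j = 0 := by decide +kernel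
      obtain ⟨j, rfl, a, b⟩ := this s hs
      exact S.commute_neg (fun t => c1 _ (S.x_mem_U (pos_simple _) t))
        ((S.commute_n a 1).mul_left (S.commute_n b 1)) t
  refine S.cent_eq hM (J := {j | (j : ℕ) ∈ [1, 2]}) (S.U_mono (Set.subset_univ _)) h1
    (S.U_PhiJ_le (fun j _ t => S.x_mem_U (Or.inl (pos_simple j)) t) fun j hj t =>
      S.x_mem_U (Or.inr (by revert j; decide +kernel)) t) ?_ ?_
  · intro u hu v hv n e
    obtain ⟨a, b⟩ := S.inv_mem2 hc (by decide) h0 (by decide) (by decide) (by decide) (by decide)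
      (by decide) (by decide) hu hv e
    have h3 : ∀ r s : Rt chevF4, (r : ℕ) ∈ [47, 44] → (s : ℕ) ∈ [47, 44] → ln r = ln (rF4 47) →
      ln s = ln (rF4 44) → r = rF4 47 ∧ s = rF4 44 := by decide +kernel
    obtain ⟨a, b⟩ := h3 _ _ a b (wg_ln _ _) (wg_ln _ _)
    refine WJ_mono (fun j => ?_) (stab_WJ (fun j => ?_) (act_pair2 (wg_fix a) (wg_fix b) 1 1)) <;>
      simp only [pair_T, Set.mem_ofPred_eq] <;> revert j <;> decide +kernel
  · intro u hu c e
    rw [← (c1 u hu).eq, mul_inv_cancel_right, conj_mul2, (hM.hp_spec c).2, (hM.hp_spec c).2,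
      StSys.chi_single (i := ⟨3, by decide⟩) (by decide +kernel),
      StSys.chi_single (i := ⟨0, by decide⟩) (by decide +kernel)] at e
    have h3 := S.wd_inj nil_pos (w := [(rF4 47, 1), (rF4 44, 1)])
      (w' := [(rF4 47, c ⟨3, by decide⟩ * 1), (rF4 44, c ⟨0, by decide⟩ * 1)]) rfl
      (by simp only [List.map_cons, List.map_nil]; decide)
      (by simp only [List.map_cons, List.map_nil]; decide +kernel) (by simpa using e)
    simp only [List.cons.injEq, Prod.mk.injEq, true_and, and_true, mul_one] at h3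
    refine ⟨S.U_mono (fun _ h => Or.inl h) hu, fun i hi => ?_⟩
    have : ∀ i : Fin 4, (i : ℕ) ∉ [1, 2] → i = 0 ∨ i = 3 := by decide
    rcases this i hi with rfl | rfl
    · exact Units.ext h3.2.symm
    · exact Units.ext h3.1.symm

theorem cent_F4b (S : StSys chevF4 F G) (hπ : Function.Injective S.π) :
    S.U Set.univ ⊓ Subgroup.centralizer {S.x (rF4 39) 1 * S.x (rF4 45) 1} =
      S.U {r | (Pos r ∧ (r : ℕ) ∉ [27, 25, 34, 26]) ∨ (r : ℕ) ∈ [14, 23]} := by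
  have hM := S.hmul_of_injective hπ
  have h0 : Free (rF4 39) := free_of_chk (by decide +kernel)
  have hc : chkMod (Good.T chevF4) 2 [39, 45, 40, 44, 46, 47] [40, 44, 46, 47] = true := by
    decide +kernel
  have h1 : ∀ g ∈ S.U {r | (Pos r ∧ (r : ℕ) ∉ [27, 25, 34, 26]) ∨ (r : ℕ) ∈ [14, 23]},
      Commute (S.x (rF4 39) 1 * S.x (rF4 45) 1) g := fun g hg => by
    refine (S.U_le_iff.2 fun s hs t _ e => ?_ : _ ≤ Subgroup.centralizer {_}) hg _ rfl
    have : ∀ s : Rt chevF4, (Pos s ∧ (s : ℕ) ∉ [27, 25, 34, 26]) ∨ (s : ℕ) ∈ [14, 23] →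
      (s ≠ neg (rF4 39) ∧ ∀ e ∈ chevF4.commTerms (rF4 39) s, ((2 : ℕ) : ℤ) ∣ e.2.1) ∧
      s ≠ neg (rF4 45) ∧ ∀ e ∈ chevF4.commTerms (rF4 45) s, ((2 : ℕ) : ℤ) ∣ e.2.1 := by decide +kernel
    obtain ⟨⟨a, b⟩, c, d⟩ := this s hs
    rw [e]; exact (S.commute_mod a b 1 t).mul_left (S.commute_mod c d 1 t)
  refine S.cent_eq hM (J := {j | (j : ℕ) ∈ [0, 3]}) (S.U_mono (Set.subset_univ _)) h1
    (S.U_PhiJ_le (fun j hj t => S.x_mem_U (Or.inl (by revert j; decide +kernel)) t) fun j hj t =>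
      S.x_mem_U (Or.inr (by revert j; decide +kernel)) t) ?_ ?_
  · intro u hu v hv n e
    obtain ⟨a, b⟩ := S.inv_mem2 hc (by decide) h0 (by decide) (by decide) (by decide) (by decide)
      (by decide) (by decide) hu hv e
    have h3 : ∀ r : Rt chevF4, (r : ℕ) ∈ [39, 45, 40, 44, 46, 47] → ∀ s : Rt chevF4,
      (s : ℕ) ∈ [39, 45, 40, 44, 46, 47] → ln r = ln (rF4 39) → ln s = ln (rF4 45) →
      pair r s = pair (rF4 39) (rF4 45) → r = rF4 39 ∧ s = rF4 45 := by decide +kernel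
    obtain ⟨a, b⟩ := h3 _ a _ b (wg_ln _ _) (wg_ln _ _) (wg_pair _ _ _)
    refine WJ_mono (fun j => ?_) (stab_WJ (fun j => ?_) (act_pair2 (wg_fix a) (wg_fix b) 2 3)) <;>
      simp only [pair_T, Set.mem_ofPred_eq] <;> revert j <;> decide +kernel
  · intro u hu c e
    obtain ⟨t, m, hm, rfl⟩ := S.exists_split (L := [rF4 27, rF4 34, rF4 25, rF4 26]) (by decide)
      (by decide +kernel) hu
    have hm' : m ∈ S.U {r | (Pos r ∧ (r : ℕ) ∉ [27, 25, 34, 26]) ∨ (r : ℕ) ∈ [14, 23]} :=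
      S.U_mono (fun r => by revert r; decide +kernel) hm
    have h2 : S.wd [(rF4 27, t (rF4 27)), (rF4 34, t (rF4 34)), (rF4 25, t (rF4 25)), (rF4 26, t (rF4 26)),
          (rF4 39, 1), (rF4 45, 1)] =
        S.wd [(rF4 39, 1), (rF4 45, 1), (rF4 40, t (rF4 27)), (rF4 44, t (rF4 34)), (rF4 46, t (rF4 25)),
          (rF4 47, t (rF4 26)), (rF4 27, t (rF4 27)), (rF4 34, t (rF4 34)), (rF4 25, t (rF4 25)),
          (rF4 26, t (rF4 26))] :=
      S.wd_eq_of_chk' hπ (p := 2) (ptL [t (rF4 27), t (rF4 34), t (rF4 25), t (rF4 26)]) (k := 4)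
        (W := [(27, [(1, [1])]), (34, [(1, [0, 1])]), (25, [(1, [0, 0, 1])]), (26, [(1, [0, 0, 0, 1])]),
          (39, [(1, [])]), (45, [(1, [])])])
        (W' := [(39, [(1, [])]), (45, [(1, [])]), (40, [(1, [1])]), (44, [(1, [0, 1])]),
          (46, [(1, [0, 0, 1])]), (47, [(1, [0, 0, 0, 1])]), (27, [(1, [1])]), (34, [(1, [0, 1])]),
          (25, [(1, [0, 0, 1])]), (26, [(1, [0, 0, 0, 1])])])
        (by decide +kernel) (by simp [evW, evM, ptL, rF4]) (by simp [evW, evM, ptL, rF4])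
    rw [mul_inv_rev, mul_assoc _ m, ← (h1 m hm').eq, ← mul_assoc, ← mul_assoc, mul_inv_cancel_right,
      conj_mul2 (hM.hp c), (hM.hp_spec c).2, (hM.hp_spec c).2] at e
    have h3 := S.wd_inj nil_pos (w := [(rF4 39, 1), (rF4 45, 1), (rF4 40, t (rF4 27)),
        (rF4 44, t (rF4 34)), (rF4 46, t (rF4 25)), (rF4 47, t (rF4 26))])
      (w' := [(rF4 39, chi c (rF4 39) * 1), (rF4 45, chi c (rF4 45) * 1), (rF4 40, 0), (rF4 44, 0),
        (rF4 46, 0), (rF4 47, 0)]) rfl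
      (by simp only [List.map_cons, List.map_nil]; decide)
      (by simp only [List.map_cons, List.map_nil]; decide +kernel) (by
        simp only [StSys.wd_cons, StSys.wd_nil, StSys.pr_cons, StSys.pr_nil, mul_one, StSys.x_zero,
          mul_assoc] at *
        rw [← e, ← mul_assoc (S.x (rF4 39) 1) (S.x (rF4 45) 1)]
        simp only [← mul_assoc] at h2 ⊢
        rw [h2]; group)
    simp only [List.cons.injEq, Prod.mk.injEq, true_and, and_true, mul_one] at h3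
    obtain ⟨a, b, h3⟩ := h3
    refine ⟨by simpa [h3] using hm', fun i hi => ?_⟩
    have e1 := (chi_eq_of (D := chevF4) (r := rF4 39) ![0, -1, 1, 0]
      (show ∀ i : Fin 4, chevF4.cartan i 39 = ![0, -1, 1, 0] i by decide +kernel) c).trans
      (Fin.prod_univ_four _)
    have e2 := (chi_eq_of (D := chevF4) (r := rF4 45) ![0, 2, -1, 0]
      (show ∀ i : Fin 4, chevF4.cartan i 45 = ![0, 2, -1, 0] i by decide +kernel) c).trans
      (Fin.prod_univ_four _)
    rw [Units.val_eq_one.1 a.symm] at e1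
    rw [Units.val_eq_one.1 b.symm] at e2
    simp only [Matrix.cons_val, zpow_zero, zpow_neg, zpow_one, one_mul, mul_one, zpow_ofNat,
      pow_zero, pow_one] at e1 e2
    have e3 := inv_mul_eq_one.1 e1.symm
    rw [← e3, sq, mul_inv_cancel_right] at e2
    have : ∀ i : Fin 4, (i : ℕ) ∉ [0, 3] → i = 1 ∨ i = 2 := by decide
    rcases this i hi with rfl | rfl
    · exact e2.symm
    · exact e3.symm.trans e2.symm

end Chev
end H5
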