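import Mathlib

/-! Abstract systems of transvection pairs (towards McLaughlin's theorem). -/

namespace H5.ML

variable {F V V' : Type*} [Field F] [AddCommGroup V] [Module F V] [AddCommGroup V'] [Module F V']

/-- a connected system of transvection pairs -/
structure TV (b : V' →ₗ[F] V →ₗ[F] F) (Q : V → V' → Prop) : Prop where
  three : ∃ c : F, c ≠ 0 ∧ c ≠ 1
  perp : ∀ {v φ}, Q v φ → b φ v = 0
  sm : ∀ {v φ} {c d : F}, Q v φ → c ≠ 0 → d ≠ 0 → Q (c • v) (d • φ)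
  cj : ∀ {v φ w ψ}, Q v φ → Q w ψ → ∀ c : F, Q (v + (c * b ψ v) • w) (φ - (c * b φ w) • ψ)
  addl : ∀ {v w φ}, Q v φ → Q w φ → v + w ≠ 0 → Q (v + w) φ
  addr : ∀ {v φ ψ}, Q v φ → Q v ψ → φ + ψ ≠ 0 → Q v (φ + ψ)
  dcl : ∀ X : Submodule F V, (∀ v φ, Q v φ → ∀ x ∈ X, b φ x ≠ 0 → v ∈ X) →
    ∀ v φ w ψ, Q v φ → Q w ψ → v ∈ X → w ∈ X
  dcr : ∀ X : Submodule F V', (∀ φ v, Q v φ → ∀ x ∈ X, b x v ≠ 0 → φ ∈ X) →
    ∀ φ v ψ w, Q v φ → Q w ψ → φ ∈ X → ψ ∈ X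
  rl : ∀ {v φ}, Q v φ → ∃ u χ, Q u χ ∧ b χ v ≠ 0
  rr : ∀ {v φ}, Q v φ → ∃ χ u, Q u χ ∧ b φ u ≠ 0
  nl : ∀ {v φ w ψ}, Q v φ → Q w ψ → (∀ u χ, Q u χ → b χ w = b χ v) → (∀ u χ, Q u χ → b ψ u = b φ u) →
    w = v ∧ ψ = φ

namespace TV
variable {b : V' →ₗ[F] V →ₗ[F] F} {Q O : V → V' → Prop} (h : TV b Q) {u v w r x y z : V} {φ ψ χ ρ θ η : V'}
include h

theorem flip : TV b.flip (fun φ v => Q v φ) where
  three := h.three
  perp := h.perp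
  sm a c d := h.sm a d c
  cj a a' c := by simpa [sub_eq_add_neg] using h.cj a a' (-c)
  addl := h.addr
  addr := h.addl
  dcl := h.dcr
  dcr := h.dcl
  rl := h.rr
  rr := h.rl
  nl a a' e e' := (h.nl a a' (fun u χ q => e' χ u q) fun u χ q => e χ u q).symm

theorem pick {a : F} (ha : a ≠ 0) (k : F) : ∃ c, c ≠ 0 ∧ a + c * k ≠ 0 := by
  obtain ⟨t, t0, t1⟩ := h.three
  by_contra! e
  have e1 := e 1 one_ne_zero
  have e2 := e t t0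
  have : k = 0 := (mul_eq_zero.1 (show (t - 1) * k = 0 by linear_combination e2 - e1)).resolve_left (sub_ne_zero.2 t1)
  exact ha (by simpa [this] using e1)

omit h in
/-- invariant subsystems -/
def Inv (b : V' →ₗ[F] V →ₗ[F] F) (Q O : V → V' → Prop) : Prop := (∀ v φ, O v φ → Q v φ) ∧
  ∀ v φ w ψ, O v φ → Q w ψ → ∀ c : F, O (v + (c * b ψ v) • w) (φ - (c * b φ w) • ψ)

theorem inv : Inv b Q Q := ⟨fun _ _ a => a, fun _ _ _ _ a a' => h.cj a a'⟩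

omit h in
theorem Inv.lineL (i : Inv b Q O) (a : O u χ) (a' : Q r ρ) (e : b ρ u ≠ 0) (c : F) :
    O (u + c • r) (χ - (c * (b χ r / b ρ u)) • ρ) := by
  have := i.2 _ _ _ _ a a' (c / b ρ u)
  rwa [div_mul_cancel₀ _ e, div_mul_eq_mul_div, mul_div_assoc] at this

omit h in
theorem Inv.lineR (i : Inv b Q O) (a : O u χ) (a' : Q r ρ) (e : b χ r ≠ 0) (c : F) :
    O (u - (c * (b ρ u / b χ r)) • r) (χ + c • ρ) := by
  have := i.2 _ _ _ _ a a' (-c / b χ r)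
  rwa [div_mul_cancel₀ _ e, div_mul_eq_mul_div, mul_div_assoc, neg_mul, neg_smul, neg_smul, sub_neg_eq_add,
    ← sub_eq_add_neg] at this

theorem span0 {S : V → V' → Prop} (hS : ∀ u χ, S u χ → Q u χ) (hne : ∃ u χ, S u χ)
    (hi : ∀ u χ r ρ, S u χ → Q r ρ → b ρ u ≠ 0 → (∃ ρ', S r ρ') ∨ ∃ c : F, c ≠ 0 ∧ ∃ χ', S (u + c • r) χ')
    (a : Q w ψ) : w ∈ Submodule.span F {u | ∃ χ, S u χ} := by
  obtain ⟨u, χ, s⟩ := hne
  refine h.dcl _ (fun r ρ q x hx e => ?_) u χ w ψ (hS _ _ s) a (Submodule.subset_span ⟨χ, s⟩)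
  obtain ⟨u, ⟨χ, s⟩, e⟩ : ∃ u ∈ {u | ∃ χ, S u χ}, b ρ u ≠ 0 := by
    by_contra! n
    exact e (Submodule.span_le.2 (show _ ⊆ (LinearMap.ker (b ρ) : Set V) from n) hx)
  rcases hi u χ r ρ s q e with m | ⟨c, c0, m⟩
  · exact Submodule.subset_span m
  · have := sub_mem (Submodule.subset_span (R := F) (s := {u | ∃ χ, S u χ}) m) (Submodule.subset_span ⟨χ, s⟩)
    rwa [add_sub_cancel_left, Submodule.smul_mem_iff _ c0] at this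

theorem spanL {S : V → V' → Prop} (hS : ∀ u χ, S u χ → Q u χ) (hne : ∃ u χ, S u χ)
    (hi : ∀ u χ r ρ, S u χ → Q r ρ → b ρ u ≠ 0 → (∃ ρ', S r ρ') ∨ ∃ c : F, c ≠ 0 ∧ ∃ χ', S (u + c • r) χ')
    (hθ : ∃ ψ w, Q w ψ ∧ b θ w ≠ 0) : ∃ u χ, S u χ ∧ b θ u ≠ 0 := by
  obtain ⟨ψ, w, a, e⟩ := hθ
  by_contra! n
  exact e (Submodule.span_le.2 (show {u | ∃ χ, S u χ} ⊆ (LinearMap.ker (b θ) : Set V) from
    fun u ⟨χ, s⟩ => n u χ s) (h.span0 hS hne hi a))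

theorem spanR {S : V → V' → Prop} (hS : ∀ u χ, S u χ → Q u χ) (hne : ∃ u χ, S u χ)
    (hi : ∀ u χ r ρ, S u χ → Q r ρ → b χ r ≠ 0 → (∃ r', S r' ρ) ∨ ∃ c : F, c ≠ 0 ∧ ∃ u', S u' (χ + c • ρ))
    (hx : ∃ w ψ, Q w ψ ∧ b ψ x ≠ 0) : ∃ u χ, S u χ ∧ b χ x ≠ 0 := by
  obtain ⟨χ, u, e⟩ := h.flip.spanL (S := fun χ u => S u χ) (fun χ u => hS u χ)
    (by obtain ⟨u, χ, s⟩ := hne; exact ⟨χ, u, s⟩) (fun χ u ρ r => hi u χ r ρ) hx
  exact ⟨u, χ, e⟩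

theorem m11 (i : Inv b Q O) (hne : ∃ u χ, O u χ) (hx : ∃ w ψ, Q w ψ ∧ b ψ x ≠ 0)
    (hθ : ∃ ψ w, Q w ψ ∧ b θ w ≠ 0) : ∃ u χ, (O u χ ∧ b χ x ≠ 0) ∧ b θ u ≠ 0 := by
  refine h.spanL (fun u χ s => i.1 _ _ s.1) (h.spanR i.1 hne (fun u χ r ρ s q e =>
    Or.inr ⟨1, one_ne_zero, _, i.lineR s q e 1⟩) hx) (fun u χ r ρ s q e => ?_) hθ
  obtain ⟨c, c0, m⟩ := h.pick s.2 (-(b χ r / b ρ u * b ρ x))
  exact Or.inr ⟨c, c0, _, i.lineL s.1 q e c, by simpa [sub_eq_add_neg, mul_assoc] using m⟩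

theorem min (i : Inv b Q O) (hne : ∃ u χ, O u χ)
    (hs : ∀ v φ (c d : F), O v φ → c ≠ 0 → d ≠ 0 → O (c • v) (d • φ)) (a : Q w ψ) : O w ψ := by
  obtain ⟨v, φ, ⟨o, e1⟩, e2⟩ := h.m11 i hne (h.rl a) (h.rr a)
  have q := i.1 _ _ o
  have o2 := i.lineL (i.lineL o a e2 1) q (by simpa [h.perp q] using e1) (-1)
  have o3 := hs _ _ 1 (-(b ψ v / b φ w)) o2 one_ne_zero (by simp [e1, e2])
  convert o3 using 1
  · module
  · simp only [map_sub, map_smul, map_add, LinearMap.sub_apply, LinearMap.smul_apply, h.perp q, smul_eq_mul,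
      zero_add, one_mul]
    match_scalars <;> field_simp <;> ring

theorem s2 (hx : ∃ w ψ, Q w ψ ∧ b ψ x ≠ 0) (hy : ∃ w ψ, Q w ψ ∧ b ψ y ≠ 0) :
    ∃ u χ, (Q u χ ∧ b χ x ≠ 0) ∧ b χ y ≠ 0 := by
  refine h.spanR (fun u χ s => s.1) hx (fun u χ r ρ s q e => ?_) hy
  obtain ⟨c, c0, m⟩ := h.pick s.2 (b ρ x)
  exact Or.inr ⟨c, c0, _, h.inv.lineR s.1 q e c, by simpa using m⟩

theorem s3 (hx : ∃ w ψ, Q w ψ ∧ b ψ x ≠ 0) (hy : ∃ w ψ, Q w ψ ∧ b ψ y ≠ 0) (hz : ∃ w ψ, Q w ψ ∧ b ψ z ≠ 0) :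
    ∃ u χ, ((Q u χ ∧ b χ x ≠ 0) ∧ b χ y ≠ 0) ∧ b χ z ≠ 0 := by
  refine h.spanR (fun u χ s => s.1.1) (h.s2 hx hy) (fun u χ r ρ s q e => ?_) hz
  by_cases e1 : b ρ x = 0
  · obtain ⟨c, c0, m⟩ := h.pick s.2 (b ρ y)
    exact Or.inr ⟨c, c0, _, ⟨h.inv.lineR s.1.1 q e c, by simpa [e1] using s.1.2⟩, by simpa using m⟩
  by_cases e2 : b ρ y = 0
  · obtain ⟨c, c0, m⟩ := h.pick s.1.2 (b ρ x)
    exact Or.inr ⟨c, c0, _, ⟨h.inv.lineR s.1.1 q e c, by simpa using m⟩, by simpa [e2] using s.2⟩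
  exact Or.inl ⟨r, ⟨q, e1⟩, e2⟩

theorem m12 (hx : ∃ w ψ, Q w ψ ∧ b ψ x ≠ 0) (hθ : ∃ ψ w, Q w ψ ∧ b θ w ≠ 0) (hη : ∃ ψ w, Q w ψ ∧ b η w ≠ 0) :
    ∃ u χ, ((Q u χ ∧ b θ u ≠ 0) ∧ b η u ≠ 0) ∧ b χ x ≠ 0 := by
  refine h.spanR (fun u χ s => s.1.1) (by
    obtain ⟨χ, u, e⟩ := h.flip.s2 hθ hη; exact ⟨u, χ, e⟩) (fun u χ r ρ s q e => ?_) hx
  by_cases e1 : b θ r = 0
  · obtain ⟨c, c0, m⟩ := h.pick s.2 (-(b ρ u / b χ r * b η r))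
    exact Or.inr ⟨c, c0, _, ⟨h.inv.lineR s.1.1 q e c, by simpa [e1] using s.1.2⟩, by
      simpa [sub_eq_add_neg, mul_assoc] using m⟩
  by_cases e2 : b η r = 0
  · obtain ⟨c, c0, m⟩ := h.pick s.1.2 (-(b ρ u / b χ r * b θ r))
    exact Or.inr ⟨c, c0, _, ⟨h.inv.lineR s.1.1 q e c, by simpa [sub_eq_add_neg, mul_assoc] using m⟩, by
      simpa [e2] using s.2⟩
  exact Or.inl ⟨r, ⟨q, e1⟩, e2⟩

theorem nel (a : Q v φ) : v ≠ 0 := by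
  obtain ⟨_, _, _, e⟩ := h.rl a
  rintro rfl; simp at e

theorem ner (a : Q v φ) : φ ≠ 0 := h.flip.nel a

theorem comm (a : Q v φ) (a' : Q u χ) (e : b φ u ≠ 0) (e' : b χ v = 0) : Q v χ := by
  have q := h.inv.lineR a a' e 1
  rw [e', zero_div, mul_zero, zero_smul, sub_zero, one_smul] at q
  have q' := h.sm a one_ne_zero (neg_ne_zero.2 one_ne_zero)
  rw [one_smul] at q'
  have := h.addr q q' (by simpa using h.ner a')
  simpa using this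

omit h in
/-- symmetric type -/
def Sym (b : V' →ₗ[F] V →ₗ[F] F) (Q : V → V' → Prop) : Prop := ∀ v φ w ψ, Q v φ → Q w ψ → b φ w = 0 → b ψ v = 0

omit h in
theorem Sym.flip (s : Sym b Q) : Sym b.flip (fun φ v => Q v φ) := fun φ v ψ w a a' e => s w ψ v φ a' a e

theorem big (s : ¬ Sym b Q) (a : Q v φ) (x : V) : ∃ ψ, Q v ψ ∧ b ψ x = 0 := by
  simp only [Sym, not_forall] at s
  obtain ⟨w, ψ, v₀, φ₀, a1, a2, e1, e2⟩ := s
  have a3 := h.comm a2 a1 e2 e1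
  refine (h.min (O := fun v φ => Q v φ ∧ ∀ x, ∃ ψ, Q v ψ ∧ b ψ x = 0) ⟨fun _ _ o => o.1, fun v φ w ψ o q c =>
    ⟨h.cj o.1 q c, fun x => ?_⟩⟩ ⟨v₀, φ₀, a2, fun x => ?_⟩ (fun v φ c d o c0 d0 => ⟨h.sm o.1 c0 d0, fun x => ?_⟩) a).2 x
  · obtain ⟨χ, q', e⟩ := o.2 (x - (c * b ψ x) • w)
    refine ⟨_, h.cj q' q c, ?_⟩
    simp only [map_sub, map_smul, LinearMap.sub_apply, LinearMap.smul_apply, smul_eq_mul] at e ⊢
    linear_combination e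
  · by_cases e3 : b ψ x = 0
    · exact ⟨ψ, a3, e3⟩
    by_cases e4 : b φ₀ x = 0
    · exact ⟨φ₀, a2, e4⟩
    have q := h.sm a3 one_ne_zero (show -(b φ₀ x / b ψ x) ≠ 0 by simp [e3, e4])
    rw [one_smul] at q
    refine ⟨_, h.addr a2 q fun e => e2 ?_, by simp [e3]⟩
    simpa [h.perp a1] using congrArg (b · w) e
  · obtain ⟨χ, q, e⟩ := o.2 x
    exact ⟨χ, by simpa using h.sm q c0 one_ne_zero, e⟩

theorem g1 (s : ¬ Sym b Q) (a : Q v φ) (a' : Q u χ) (e : b χ v = 0) : Q v χ := by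
  obtain ⟨_, r₁, q, e1⟩ := h.rr a'
  obtain ⟨ρ₁, q1, e2⟩ := h.big s q u
  obtain ⟨θ, q2, e3⟩ := h.big s a r₁
  obtain ⟨r₂, ρ₂, ⟨⟨q3, e4⟩, e5⟩, e6⟩ := h.m12 (h.rl a') (h.rr q2) (h.rr q1)
  have q4 := h.inv.lineL q3 q1 e5 (-(b χ r₂ / b χ r₁))
  have q5 := h.comm q4 a' (by simpa [e2] using e6) (by simp [e1])
  exact h.comm q2 q5 (by simpa [e3] using e4) e

theorem addS (s : Sym b Q) (a : Q v φ) (a' : Q w ψ) (e : v + w ≠ 0) : ∃ χ, Q (v + w) χ := by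
  by_cases c : ∃ u χ, Q u χ ∧ b χ (v + w) ≠ 0
  · obtain ⟨u, χ, ⟨⟨q, e1⟩, e2⟩, e3⟩ := h.s3 (h.rl a) (h.rl a') c
    have e4 : b ψ u ≠ 0 := fun e => e2 (s _ _ _ _ a' q e)
    by_cases e5 : b ψ v = 0
    swap
    · exact ⟨_, by simpa using h.inv.lineL a a' e5 1⟩
    have q1 := h.inv.lineL (h.inv.lineL a q e1 1) a' (by simpa [e5] using e4) 1
    have q2 := h.inv.lineL q1 q (by simpa [h.perp q] using e3) (-1)
    exact ⟨_, by convert q2 using 1; module⟩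
  push Not at c
  have c' : ∀ u χ, Q u χ → b χ w = -b χ v := fun u χ q => by
    have := c u χ q; rw [map_add] at this; linear_combination this
  obtain ⟨χ, u, q, e1⟩ := h.rr a
  have e2 : b ψ u ≠ 0 := fun e => e1 (s _ _ _ _ q a (by
    have := s _ _ _ _ a' q e; rwa [c' _ _ q, neg_eq_zero] at this))
  have t : ∀ u' χ', Q u' χ' → b ψ u' = b ((b ψ u / b φ u) • φ) u' := by
    by_contra! n
    obtain ⟨u', χ', q', n⟩ := n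
    obtain ⟨χ₁, u₁, ⟨q1, e3⟩, e4⟩ := h.flip.s2 (x := ψ - (b ψ u / b φ u) • φ)
      ⟨χ', u', q', by simpa [sub_eq_zero] using n⟩ (h.rr q)
    have q2 := h.inv.lineL q1 q e4 (-(b φ u₁ / b φ u))
    have e5 := s _ _ _ _ a q2 (by simp [e1])
    have e6 := s _ _ _ _ q2 a' (by rw [c' _ _ q2, e5, neg_zero])
    apply e3
    simp only [map_add, map_smul, map_sub, LinearMap.flip_apply, LinearMap.smul_apply, smul_eq_mul] at e6 ⊢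
    linear_combination e6
  have := h.nl (h.sm a (neg_ne_zero.2 one_ne_zero) (div_ne_zero e2 e1)) a' (fun u χ q => by simp [c' u χ q]) t
  exact (e (by simp [this.1])).elim

theorem addZ (a : Q v φ) (a' : Q w ψ) (e : v + w ≠ 0) : ∃ χ, Q (v + w) χ := by
  by_cases s : Sym b Q
  · exact h.addS s a a' e
  by_cases e5 : b ψ v = 0
  · exact ⟨ψ, h.addl (h.g1 s a a' e5) a' e⟩
  · exact ⟨_, by simpa using h.inv.lineL a a' e5 1⟩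

/-- the space of centres -/
def W : Submodule F V where
  carrier := {v | v = 0 ∨ ∃ φ, Q v φ}
  zero_mem' := Or.inl rfl
  add_mem' := by
    rintro v w (rfl | ⟨φ, a⟩) (rfl | ⟨ψ, a'⟩)
    · simp
    · exact Or.inr ⟨ψ, by simpa using a'⟩
    · exact Or.inr ⟨φ, by simpa using a⟩
    · exact or_iff_not_imp_left.2 (h.addZ a a')
  smul_mem' c v := by
    rintro (rfl | ⟨φ, a⟩)
    · simp
    · by_cases c0 : c = 0
      · simp [c0]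
      · exact Or.inr ⟨φ, by simpa using h.sm a c0 one_ne_zero⟩

theorem memW (a : Q v φ) : v ∈ h.W := Or.inr ⟨φ, a⟩

theorem W_zero (hv : v ∈ h.W) (e : ∀ u χ, Q u χ → b χ v = 0) : v = 0 := by
  rcases hv with hv | ⟨φ, a⟩
  · exact hv
  · obtain ⟨u, χ, q, n⟩ := h.rl a
    exact (n (e u χ q)).elim

theorem sp (s : Sym b Q) {e : V} {ε : V'} (a₀ : Q e ε) : ∃ σ : h.W →ₗ[F] V',
    (∀ v w : h.W, b (σ v) w = -b (σ w) v) ∧ ∀ v φ (a : Q v φ), ∃ l : F, l ≠ 0 ∧ φ = l • σ ⟨v, h.memW a⟩ := by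
  let S : V → V' → Prop := fun w ψ => (Q w ψ ∧ b ε w ≠ 0) ∧ b ψ e = -b ε w
  have nS : ∀ w ψ, Q w ψ → b ε w ≠ 0 → ∃ l : F, l ≠ 0 ∧ S w (l • ψ) := fun w ψ q n => by
    have n' : b ψ e ≠ 0 := fun e => n (s _ _ _ _ q a₀ e)
    exact ⟨-(b ε w / b ψ e), by simp [n, n'], ⟨by
      simpa only [one_smul] using h.sm q one_ne_zero (show -(b ε w / b ψ e) ≠ 0 by simp [n, n']), n⟩, by simp [n']⟩
  have sk : ∀ v φ w ψ, S v φ → S w ψ → b φ w = -b ψ v := fun v φ w ψ s1 s2 => by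
    have q := h.inv.lineL s1.1.1 a₀ s1.1.2 (b ψ v / b ε w)
    have := s _ _ _ _ s2.1.1 q (by simp [s2.2, s2.1.2])
    have n := s1.1.2
    have n' := s2.1.2
    simp only [map_sub, map_smul, LinearMap.sub_apply, LinearMap.smul_apply, smul_eq_mul, s1.2] at this
    field_simp at this
    linear_combination this
  have sp : ∀ v ∈ h.W, v ∈ Submodule.span F {u | ∃ χ, S u χ} := by
    rintro v (rfl | ⟨φ, a⟩)
    · exact zero_mem _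
    refine h.span0 (fun u χ s => s.1.1) ?_ (fun u χ r ρ s q n => ?_) a
    · obtain ⟨χ, u, q, n⟩ := h.rr a₀
      obtain ⟨l, -, m⟩ := nS u χ q n
      exact ⟨_, _, m⟩
    · obtain ⟨c, c0, m⟩ := h.pick s.1.2 (b ε r)
      obtain ⟨l, -, m⟩ := nS _ _ (h.inv.lineL s.1.1 q n c) (by simpa using m)
      exact Or.inr ⟨c, c0, _, m⟩
  have kill : ∀ θ, (∀ w ψ, S w ψ → b θ w = 0) → ∀ v ∈ h.W, b θ v = 0 := fun θ n v hv =>
    Submodule.span_le.2 (show {u | ∃ χ, S u χ} ⊆ (LinearMap.ker (b θ) : Set V) from fun u ⟨χ, s⟩ => n u χ s) (sp v hv)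
  have ex : ∀ v : h.W, ∃ φ ∈ h.flip.W, ∀ w ψ, S w ψ → b φ w = -b ψ v := fun v => by
    refine Submodule.span_induction (p := fun v _ => ∃ φ ∈ h.flip.W, ∀ w ψ, S w ψ → b φ w = -b ψ v)
      (fun v hv => hv.elim fun φ m => ⟨φ, h.flip.memW m.1.1, fun w ψ => sk v φ w ψ m⟩) ⟨0, zero_mem _, by simp⟩ ?_ ?_ (sp v v.2)
    · rintro x y _ _ ⟨φ, m, e⟩ ⟨φ', m', e'⟩
      exact ⟨φ + φ', add_mem m m', fun w ψ q => by simp [e w ψ q, e' w ψ q, add_comm]⟩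
    · rintro c x _ ⟨φ, m, e⟩
      exact ⟨c • φ, Submodule.smul_mem _ _ m, fun w ψ q => by simp [e w ψ q]⟩
  have un : ∀ φ ∈ h.flip.W, ∀ φ' ∈ h.flip.W, (∀ w ψ, S w ψ → b φ w = b φ' w) → φ = φ' := fun φ m φ' m' e =>
    sub_eq_zero.1 (h.flip.W_zero (sub_mem m m') fun χ u q =>
      kill (φ - φ') (fun w ψ q => by simp [e w ψ q]) u (h.memW q))
  choose σ m1 m2 using ex
  let σ' : h.W →ₗ[F] V' := ⟨⟨σ, fun x y => un _ (m1 _) _ (add_mem (m1 x) (m1 y)) fun w ψ q => by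
    simp [m2 _ w ψ q, add_comm]⟩, fun c x => un _ (m1 _) _ (Submodule.smul_mem _ c (m1 x)) fun w ψ q => by
    simp [m2 _ w ψ q]⟩
  have σS : ∀ w ψ (q : S w ψ), σ' ⟨w, h.memW q.1.1⟩ = ψ := fun w ψ q =>
    un _ (m1 _) _ (h.flip.memW q.1.1) fun w' ψ' q' => (m2 _ w' ψ' q').trans (sk _ _ _ _ q q').symm
  refine ⟨σ', fun v w => ?_, fun v φ a => ?_⟩
  · have : Submodule.span F {u | ∃ χ, S u χ} ≤
        (LinearMap.ker (b (σ' v) ∘ₗ h.W.subtype + b.flip v ∘ₗ σ')).map h.W.subtype := by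
      refine Submodule.span_le.2 fun u hu => hu.elim fun χ q => ⟨⟨u, h.memW q.1.1⟩, ?_, rfl⟩
      change b (σ v) u + b (σ' ⟨u, _⟩) v = 0
      rw [σS u χ q, m2 v u χ q, neg_add_cancel]
    obtain ⟨w', e1, e2⟩ := this (sp w w.2)
    obtain rfl : w' = w := Subtype.ext e2
    exact eq_neg_of_add_eq_zero_left e1
  · by_cases n : b ε v = 0
    swap
    · obtain ⟨l, l0, m⟩ := nS v φ a n
      exact ⟨l⁻¹, inv_ne_zero l0, by rw [σS _ _ m, inv_smul_smul₀ l0]⟩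
    obtain ⟨χ, w, ⟨q, e1⟩, e2⟩ := h.flip.s2 (h.rr a₀) (h.rr a)
    obtain ⟨l, -, m⟩ := nS w χ q e1
    generalize l • χ = ψ at m
    have e3 : b ψ v ≠ 0 := fun e => e2 (s _ _ _ _ m.1.1 a e)
    have m' : S (w + (1 : F) • v) (ψ - (1 * (b ψ v / b φ w)) • φ) :=
      ⟨⟨h.inv.lineL m.1.1 a e2 1, by simpa [n] using m.1.2⟩, by simp [n, m.2, s _ _ _ _ a₀ a n]⟩
    have := σS _ _ m'
    rw [show (⟨w + (1 : F) • v, _⟩ : h.W) = ⟨w, h.memW m.1.1⟩ + (1 : F) • ⟨v, h.memW a⟩ from rfl, map_add,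
      σS _ _ m, one_smul, sub_eq_add_neg, add_right_inj] at this
    change b φ w ≠ 0 at e2
    refine ⟨-(b φ w / b ψ v), by simp [e2, e3], ?_⟩
    rw [this]; match_scalars; field_simp

end TV
end H5.ML
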