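import Cfsg.Agent.H5.ML1
import Cfsg.Agent.H4.Simple
import Cfsg.Agent.H4.SLBasic

/-! Groups generated by transvection subgroups: components. -/

namespace H5.ML
open Module

section Abs
variable {F V V' : Type*} [Field F] [AddCommGroup V] [Module F V] [AddCommGroup V'] [Module F V']

/-- components -/
structure Cp (b : V' →ₗ[F] V →ₗ[F] F) (P Q : V → V' → Prop) : Prop where
  sub : ∀ {v φ}, Q v φ → P v φ
  step : ∀ {v φ w ψ}, Q v φ → P w ψ → (b φ w ≠ 0 ∨ b ψ v ≠ 0) → Q w ψ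
  conn : ∀ R : V → V' → Prop, (∀ u χ v φ, Q u χ → Q v φ → (b χ v ≠ 0 ∨ b φ u ≠ 0) → R u χ → R v φ) →
    ∀ u χ v φ, Q u χ → Q v φ → R u χ → R v φ

variable {b : V' →ₗ[F] V →ₗ[F] F} {P Q : V → V' → Prop}

theorem Cp.flip (h : Cp b P Q) : Cp b.flip (fun φ v => P v φ) (fun φ v => Q v φ) where
  sub := h.sub
  step a a' e := h.step a a' e.symm
  conn R hR χ u φ v := h.conn (fun u χ => R χ u) (fun u χ v φ a a' e => hR χ u φ v a a' e.symm) u χ v φ

theorem Cp.span (h : Cp b P Q) {r : V} {ρ : V'} (a : P r ρ) {x : V} (hx : x ∈ Submodule.span F {u | ∃ χ, Q u χ})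
    (e : b ρ x ≠ 0) : Q r ρ := by
  by_contra n
  refine e (Submodule.span_le.2 (show _ ⊆ (LinearMap.ker (b ρ) : Set V) from fun u hu => hu.elim fun χ q => ?_) hx)
  by_contra m
  exact n (h.step q a (Or.inr m))

theorem Cp.dc (h : Cp b P Q) (comm : ∀ v φ u χ, P v φ → P u χ → b φ u ≠ 0 → b χ v = 0 → P v χ)
    (R : ∀ X : Submodule F V, (∀ v φ, P v φ → ∀ x ∈ X, b φ x ≠ 0 → v ∈ X) →
      ∀ v φ, P v φ → v ∈ X → (∀ x ∈ X, b φ x = 0) → False)
    (X : Submodule F V) (hX : ∀ v φ, Q v φ → ∀ x ∈ X, b φ x ≠ 0 → v ∈ X) :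
    ∀ v φ w ψ, Q v φ → Q w ψ → v ∈ X → w ∈ X := by
  refine h.conn (fun v _ => v ∈ X) fun u χ v φ a a' e m => ?_
  by_contra n
  have k : ∀ x ∈ X, b φ x = 0 := fun x hx => by
    by_contra m; exact n (hX v φ a' x hx m)
  refine R (X ⊓ Submodule.span F {u | ∃ χ, Q u χ}) (fun r ρ p x hx e => ?_) u φ
    (comm _ _ _ _ (h.sub a) (h.sub a') (e.resolve_right (not_not.2 (k u m))) (k u m))
    ⟨m, Submodule.subset_span ⟨χ, a⟩⟩ fun x hx => k x hx.1
  have q := h.span p hx.2 e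
  exact ⟨hX r ρ q x hx.1 e, Submodule.subset_span ⟨ρ, q⟩⟩

theorem perf0 [FiniteDimensional F V] [FiniteDimensional F V'] (B : V' →ₗ[F] V →ₗ[F] F) (i1 : Function.Injective B)
    (i2 : Function.Injective B.flip) : Function.Surjective B ∧ Function.Surjective B.flip := by
  have d1 := LinearMap.finrank_le_finrank_of_injective i1
  have d2 := LinearMap.finrank_le_finrank_of_injective i2
  have d3 : finrank F (V →ₗ[F] F) = finrank F V := Subspace.dual_finrank_eq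
  have d4 : finrank F (V' →ₗ[F] F) = finrank F V' := Subspace.dual_finrank_eq
  exact ⟨(LinearMap.injective_iff_surjective_of_finrank_eq_finrank (by omega)).1 i1,
    (LinearMap.injective_iff_surjective_of_finrank_eq_finrank (by omega)).1 i2⟩

theorem TV.perf [FiniteDimensional F V] [FiniteDimensional F V'] (t : TV b Q) :
    (∀ x, ∃ w ∈ t.W, ∀ u χ, Q u χ → b χ w = b χ x) ∧
      ∀ θ : t.W →ₗ[F] F, ∃ φ ∈ t.flip.W, ∀ w : t.W, b φ w = θ w := by
  let B : t.flip.W →ₗ[F] t.W →ₗ[F] F := (b ∘ₗ t.flip.W.subtype).compl₂ t.W.subtype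
  have i1 : Function.Injective B := (injective_iff_map_eq_zero _).2 fun φ e => Subtype.ext
    (t.flip.W_zero φ.2 fun χ u q => LinearMap.congr_fun e ⟨u, t.memW q⟩)
  have i2 : Function.Injective B.flip := (injective_iff_map_eq_zero _).2 fun w e => Subtype.ext
    (t.W_zero w.2 fun u χ q => LinearMap.congr_fun e ⟨χ, t.flip.memW q⟩)
  obtain ⟨s1, s2⟩ := perf0 B i1 i2
  refine ⟨fun x => ?_, fun θ => ?_⟩
  · obtain ⟨w, e⟩ := s2 (b.flip x ∘ₗ t.flip.W.subtype)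
    exact ⟨w, w.2, fun u χ q => LinearMap.congr_fun e ⟨χ, t.flip.memW q⟩⟩
  · obtain ⟨φ, e⟩ := s1 θ
    exact ⟨φ, φ.2, fun w => LinearMap.congr_fun e w⟩
end Abs

variable {F V : Type*} [Field F] [AddCommGroup V] [Module F V] (H : Subgroup (V ≃ₗ[F] V))

/-- transvection pairs of `H` -/
structure PP (v : V) (φ : Dual F V) : Prop where
  v0 : v ≠ 0
  φ0 : φ ≠ 0
  perp : φ v = 0
  ex : ∀ c : F, ∃ g ∈ H, ∀ x, g x = x + φ x • c • v

/-- invariance criterion -/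
def IC (X : Submodule F V) : Prop := ∀ v φ, PP H v φ → ∀ x ∈ X, φ x ≠ 0 → v ∈ X

/-- the group of a system -/
def KK (Q : V → Dual F V → Prop) : Subgroup (V ≃ₗ[F] V) :=
  Subgroup.closure {g | ∃ v φ, Q v φ ∧ ∀ x, g x = x + φ x • v}

/-- the hypotheses -/
structure HH : Prop where
  three : ∃ c : F, c ≠ 0 ∧ c ≠ 1
  gen : H = KK (PP H)
  un : ∀ A B : Submodule F V, (∀ g ∈ H, ∀ x ∈ A, g x ∈ A) → (∀ g ∈ H, ∀ x ∈ B, g x ∈ B) →
    ∀ g ∈ H, (∀ x, g x - x ∈ A) → (∀ x ∈ A, g x - x ∈ B) → (∀ x ∈ B, g x = x) → g = 1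

variable {H} {v w u : V} {φ ψ χ : Dual F V} {Q Q' : V → Dual F V → Prop}

theorem PP.sm (a : PP H v φ) {c d : F} (hc : c ≠ 0) (hd : d ≠ 0) : PP H (c • v) (d • φ) :=
  ⟨smul_ne_zero hc a.v0, smul_ne_zero hd a.φ0, by simp [a.perp], fun e => by
    obtain ⟨g, m, h⟩ := a.ex (d * e * c)
    exact ⟨g, m, fun x => by rw [h]; simp only [LinearMap.smul_apply, smul_eq_mul]; module⟩⟩

theorem PP.cj (a : PP H v φ) (a' : PP H w ψ) (c : F) : PP H (v + (c * ψ v) • w) (φ - (c * φ w) • ψ) := by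
  obtain ⟨g, m, h⟩ := a'.ex c
  have i : ∀ x, g⁻¹ x = x - ψ x • c • w := fun x => g.injective (by
    rw [h (x - _)]; simp [a'.perp])
  have e1 : v + (c * ψ v) • w = g v := by rw [h]; module
  have e2 : ∀ x, (φ - (c * φ w) • ψ) x = φ (g⁻¹ x) := fun x => by rw [i]; simp; ring
  refine ⟨by rw [e1]; simpa using a.v0, fun e => a.φ0 (LinearMap.ext fun x => ?_), by rw [e1, e2]; simp [a.perp],
    fun d => ?_⟩
  · simpa [e] using (e2 (g x)).symm
  · obtain ⟨t, m', h'⟩ := a.ex d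
    exact ⟨g * t * g⁻¹, mul_mem (mul_mem m m') (inv_mem m), fun x => by
      rw [e1, e2, LinearEquiv.mul_apply, LinearEquiv.mul_apply, h']; simp⟩

theorem PP.addl (a : PP H v φ) (a' : PP H w φ) (e : v + w ≠ 0) : PP H (v + w) φ :=
  ⟨e, a.φ0, by simp [a.perp, a'.perp], fun c => by
    obtain ⟨g, m, h⟩ := a.ex c
    obtain ⟨t, m', h'⟩ := a'.ex c
    exact ⟨g * t, mul_mem m m', fun x => by
      rw [LinearEquiv.mul_apply, h', h]; simp only [map_add, map_smul, a'.perp, smul_eq_mul]; module⟩⟩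

theorem PP.addr (a : PP H v φ) (a' : PP H v ψ) (e : φ + ψ ≠ 0) : PP H v (φ + ψ) :=
  ⟨a.v0, e, by simp [a.perp, a'.perp], fun c => by
    obtain ⟨g, m, h⟩ := a.ex c
    obtain ⟨t, m', h'⟩ := a'.ex c
    exact ⟨g * t, mul_mem m m', fun x => by
      rw [LinearEquiv.mul_apply, h', h]
      simp only [map_add, map_smul, a.perp, smul_eq_mul, LinearMap.add_apply]; module⟩⟩

theorem PP.comm (a : PP H v φ) (a' : PP H u χ) (e : φ u ≠ 0) (e' : χ v = 0) : PP H v χ := by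
  have q := a.cj a' (-(φ u)⁻¹)
  rw [e', mul_zero, zero_smul, add_zero, neg_mul, inv_mul_cancel₀ e] at q
  have q' := a.sm one_ne_zero (neg_ne_zero.2 one_ne_zero)
  rw [one_smul] at q'
  have e1 : φ - (-1 : F) • χ + (-1 : F) • φ = χ := by module
  exact e1 ▸ q.addr q' (e1.symm ▸ a'.φ0)

theorem K_ind (hs : ∀ v φ, Q v φ → Q (-v) φ ∧ φ v = 0) {p : (g : V ≃ₗ[F] V) → g ∈ KK Q → Prop} (h0 : p 1 (one_mem _))
    (h1 : ∀ g hg v φ, Q v φ → (∀ x, g x = x + φ x • v) → p g hg)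
    (h2 : ∀ g g' hg hg', p g hg → p g' hg' → p (g * g') (mul_mem hg hg')) {g : V ≃ₗ[F] V} (hg : g ∈ KK Q) : p g hg := by
  induction hg using Subgroup.closure_induction'' with
  | one => exact h0
  | mul x y hx hy a b => exact h2 x y hx hy a b
  | mem g hg => obtain ⟨v, φ, q, e⟩ := hg; exact h1 g _ v φ q e
  | inv_mem g hg =>
    obtain ⟨v, φ, q, e⟩ := hg
    exact h1 _ _ (-v) φ (hs v φ q).1 fun x => g.injective (by rw [e (x + _)]; simp [(hs v φ q).2])

theorem PP.neg (a : PP H v φ) : PP H (-v) φ ∧ φ v = 0 :=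
  ⟨by simpa using a.sm (neg_ne_zero.2 one_ne_zero) one_ne_zero, a.perp⟩

namespace HH
variable (h : HH H)
include h

theorem inv {X : Submodule F V} (hX : IC H X) : ∀ g ∈ H, ∀ x ∈ X, g x ∈ X := fun g hg => by
  rw [h.gen] at hg
  refine K_ind (p := fun g _ => ∀ x ∈ X, g x ∈ X) (fun _ _ => PP.neg) (fun x hx => hx) (fun g _ v φ a e x hx => ?_)
    (fun g g' _ _ a a' x hx => a _ (a' x hx)) hg
  rw [e]
  by_cases c : φ x = 0
  · simpa [c] using hx
  · exact add_mem hx (Submodule.smul_mem _ _ (hX v φ a x hx c))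

theorem map_eq {X : Submodule F V} (hX : IC H X) {g : V ≃ₗ[F] V} (hg : g ∈ H) : X.map (g : V →ₗ[F] V) = X :=
  le_antisymm (by rintro _ ⟨x, hx, rfl⟩; exact h.inv hX g hg x hx)
    fun x hx => ⟨g⁻¹ x, h.inv hX _ (inv_mem hg) x hx, by simp⟩

theorem R (X : Submodule F V) (hX : IC H X) (v : V) (φ : Dual F V) (a : PP H v φ) (m : v ∈ X)
    (k : ∀ x ∈ X, φ x = 0) : False := by
  obtain ⟨g, hg, e⟩ := a.ex 1
  have := h.un X X (h.inv hX) (h.inv hX) g hg (fun x => by simpa [e] using X.smul_mem _ m)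
    (fun x _ => by simpa [e] using X.smul_mem _ m) fun x hx => by simp [e, k x hx]
  exact a.φ0 (LinearMap.ext fun x => by simpa [this, a.v0] using e x)

theorem R' (X : Submodule F (Dual F V)) (hX : ∀ φ v, PP H v φ → ∀ x ∈ X, x v ≠ 0 → φ ∈ X) (φ : Dual F V) (v : V)
    (a : PP H v φ) (m : φ ∈ X) (k : ∀ x ∈ X, x v = 0) : False := by
  refine h.R X.dualCoannihilator (fun r ρ p y hy e => (Submodule.mem_dualCoannihilator _).2 fun θ hθ => ?_) v φ a
    ((Submodule.mem_dualCoannihilator _).2 k) fun x hx => (Submodule.mem_dualCoannihilator _).1 hx φ m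
  by_contra n
  exact e ((Submodule.mem_dualCoannihilator _).1 hy ρ (hX ρ r p θ hθ n))

theorem rr (a : PP H v φ) : ∃ χ u, PP H u χ ∧ φ u ≠ 0 := by
  by_contra! n
  exact h.R (Submodule.span F {u | ∃ χ, PP H u χ}) (fun r ρ p _ _ _ => Submodule.subset_span ⟨ρ, p⟩) v φ a
    (Submodule.subset_span ⟨φ, a⟩) fun x hx => Submodule.span_le.2
      (show _ ⊆ (LinearMap.ker φ : Set V) from fun u hu => hu.elim fun χ q => n χ u q) hx

theorem rl (a : PP H v φ) : ∃ u χ, PP H u χ ∧ χ v ≠ 0 := by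
  by_contra! n
  exact h.R' (Submodule.span F {χ | ∃ u, PP H u χ}) (fun ρ r p _ _ _ => Submodule.subset_span ⟨r, p⟩) φ v a
    (Submodule.subset_span ⟨v, a⟩) fun x hx => Submodule.span_le.2
      (show {χ | ∃ u, PP H u χ} ⊆ (LinearMap.ker (Dual.eval F V v) : Set _) from
        fun χ hu => Exists.elim hu fun u q => n u χ q) hx

end HH

/-- fixed space of a system -/
def CC (Q : V → Dual F V → Prop) : Submodule F V where
  carrier := {x | ∀ u χ, Q u χ → χ x = 0}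
  zero_mem' := by simp
  add_mem' a b u χ q := by simp [a u χ q, b u χ q]
  smul_mem' c x a u χ q := by simp [a u χ q]

theorem Cp.icC (c : Cp LinearMap.id (PP H) Q) : IC H (CC Q) := fun r ρ p x hx e u χ q => by
  by_contra n
  exact e (hx r ρ (c.step q p (Or.inl n)))

theorem HH.tv (h : HH H) (c : Cp LinearMap.id (PP H) Q) : TV LinearMap.id Q where
  three := h.three
  perp a := (c.sub a).perp
  sm a c0 d0 := by
    obtain ⟨u, χ, p, e⟩ := h.rl (c.sub a)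
    exact c.step (c.step a p (Or.inr e)) ((c.sub a).sm c0 d0) (Or.inl (by simp [c0, e]))
  cj {v φ w ψ} a a' d := by
    by_cases e : φ w = 0 ∧ ψ v = 0
    · simpa [e.1, e.2] using a
    · refine c.step a' ((c.sub a).cj (c.sub a') d) ?_
      simpa [(c.sub a').perp, or_comm, not_and_or] using not_and_or.1 e
  addl a a' e := by
    obtain ⟨χ, u, p, e'⟩ := h.rr (c.sub a)
    exact c.step (c.step a p (Or.inl e')) ((c.sub a).addl (c.sub a') e) (Or.inr e')
  addr a a' e := by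
    obtain ⟨u, χ, p, e'⟩ := h.rl (c.sub a)
    exact c.step (c.step a p (Or.inr e')) ((c.sub a).addr (c.sub a') e) (Or.inl e')
  dcl := c.dc (fun _ _ _ _ => PP.comm) h.R
  dcr := c.flip.dc (fun _ _ _ _ a a' e e' => a'.comm a e e') h.R'
  rl a := by
    obtain ⟨u, χ, p, e⟩ := h.rl (c.sub a)
    exact ⟨u, χ, c.step a p (Or.inr e), e⟩
  rr a := by
    obtain ⟨χ, u, p, e⟩ := h.rr (c.sub a)
    exact ⟨χ, u, c.step a p (Or.inl e), e⟩
  nl {v φ w ψ} a a' e e' := by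
    obtain ⟨g, m, hg⟩ := (c.sub a').ex 1
    obtain ⟨t, m', ht⟩ := (c.sub a).ex (-1)
    have e0 : ψ v = 0 := (e' v φ a).trans (c.sub a).perp
    have k : ∀ x, (g * t) x - x = ψ x • w - φ x • v := fun x => by
      rw [LinearEquiv.mul_apply, ht, hg]; simp only [map_add, map_smul, e0, smul_eq_mul]; module
    have mv : v ∈ Submodule.span F {u | ∃ χ, Q u χ} := Submodule.subset_span ⟨φ, a⟩
    have mw : w ∈ Submodule.span F {u | ∃ χ, Q u χ} := Submodule.subset_span ⟨ψ, a'⟩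
    have := h.un (Submodule.span F {u | ∃ χ, Q u χ}) (CC Q)
      (h.inv fun r ρ p x hx e => Submodule.subset_span ⟨ρ, c.span p hx e⟩) (h.inv c.icC) _ (mul_mem m m')
      (fun x => k x ▸ sub_mem (Submodule.smul_mem _ _ mw) (Submodule.smul_mem _ _ mv)) (fun x hx u χ q => by
        have : (ψ - φ) x = 0 := Submodule.span_le.2 (show _ ⊆ (LinearMap.ker (ψ - φ) : Set V) from
          fun u hu => hu.elim fun χ q => sub_eq_zero.2 (e' u χ q)) hx
        have e1 : χ w = χ v := e u χ q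
        rw [k, map_sub, map_smul, map_smul, e1, sub_eq_zero.1 this, sub_self])
      fun x hx => sub_eq_zero.1 (by rw [k, hx w ψ a', hx v φ a]; simp)
    have k' : ∀ x, ψ x • w = φ x • v := fun x => sub_eq_zero.1 (by rw [← k, this]; simp)
    obtain ⟨χ, u, p, n⟩ := h.rr (c.sub a)
    have e1 : w = v := by
      have := k' u
      rw [show ψ u = φ u from e' u χ (c.step a p (Or.inl n))] at this
      exact smul_right_injective _ n this
    subst e1
    exact ⟨rfl, LinearMap.ext fun x => smul_left_injective F (c.sub a).v0 (k' x)⟩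

variable (H) in
/-- adjacency -/
def Adj (a b : V × Dual F V) : Prop := PP H a.1 a.2 ∧ PP H b.1 b.2 ∧ (a.2 b.1 ≠ 0 ∨ b.2 a.1 ≠ 0)

variable (H) in
/-- component -/
def QQ (a : V × Dual F V) (v : V) (φ : Dual F V) : Prop := PP H v φ ∧ Relation.ReflTransGen (Adj H) a (v, φ)

theorem cpQ (a : V × Dual F V) : Cp LinearMap.id (PP H) (QQ H a) where
  sub q := q.1
  step q p e := ⟨p, q.2.tail ⟨q.1, p, e⟩⟩
  conn R hR := by
    have : ∀ b, Relation.ReflTransGen (Adj H) a b → (R a.1 a.2 ↔ R b.1 b.2) := fun b hb => by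
      induction hb with
      | refl => rfl
      | tail p s ih => exact ih.trans ⟨hR _ _ _ _ ⟨s.1, p⟩ ⟨s.2.1, p.tail s⟩ s.2.2,
          hR _ _ _ _ ⟨s.2.1, p.tail s⟩ ⟨s.1, p⟩ s.2.2.symm⟩
    exact fun u χ v φ q q' r => (this _ q'.2).1 ((this _ q.2).2 r)

theorem Cp.eq (c : Cp LinearMap.id (PP H) Q) (c' : Cp LinearMap.id (PP H) Q') (a : Q v φ) (a' : Q' v φ) : Q = Q' := by
  ext w ψ
  exact ⟨fun q => c.conn Q' (fun _ _ _ _ _ b e r => c'.step r (c.sub b) e) _ _ _ _ a q a',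
    fun q => c'.conn Q (fun _ _ _ _ _ b e r => c.step r (c'.sub b) e) _ _ _ _ a' q a⟩

section Comp
variable (t : TV (LinearMap.id : Dual F V →ₗ[F] _) Q)
include t

theorem TV.neg (v : V) (φ : Dual F V) (a : Q v φ) : Q (-v) φ ∧ φ v = 0 :=
  ⟨by simpa using t.sm a (neg_ne_zero.2 one_ne_zero) one_ne_zero, t.perp a⟩

theorem K_W {g : V ≃ₗ[F] V} (hg : g ∈ KK Q) : ∀ x, g x - x ∈ t.W :=
  K_ind (p := fun g _ => ∀ x, g x - x ∈ t.W) t.neg (by simp) (fun g _ v φ a e x => by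
    simpa [e] using t.W.smul_mem _ (t.memW a)) (fun g g' _ _ a a' x => by
    simpa using add_mem (a (g' x)) (a' x)) hg

theorem K_C {g : V ≃ₗ[F] V} (hg : g ∈ KK Q) : ∀ x ∈ CC Q, g x = x :=
  K_ind (p := fun g _ => ∀ x ∈ CC Q, g x = x) t.neg (by simp) (fun g _ v φ a e x hx => by simp [e, hx v φ a])
    (fun g g' _ _ a a' x hx => by simp [a' x hx, a x hx]) hg

theorem W_le (c : Cp LinearMap.id (PP H) Q) (c' : Cp LinearMap.id (PP H) Q') (n : Q ≠ Q') : t.W ≤ CC Q' := by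
  rintro v (rfl | ⟨φ, a⟩) u χ q
  · simp
  · by_contra m
    exact n (c.eq c' a (c'.step q (c.sub a) (Or.inl m)))

theorem icW (c : Cp LinearMap.id (PP H) Q) : IC H t.W := by
  rintro r ρ p x (rfl | ⟨φ, a⟩) e
  · simp at e
  · exact t.memW (c.step a p (Or.inr e))

theorem K_le (c : Cp LinearMap.id (PP H) Q) (h : HH H) : KK Q ≤ H :=
  h.gen.symm ▸ Subgroup.closure_mono fun _ ⟨v, φ, a, e⟩ => ⟨v, φ, c.sub a, e⟩

variable [FiniteDimensional F V]

theorem perf : (∀ x, ∃ w ∈ t.W, x - w ∈ CC Q) ∧ ∀ θ : Dual F t.W, ∃ φ ∈ t.flip.W, ∀ w : t.W, φ w = θ w := by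
  refine ⟨fun x => ?_, t.perf.2⟩
  obtain ⟨w, m, e⟩ := t.perf.1 x
  exact ⟨w, m, fun u χ q => by rw [map_sub, sub_eq_zero]; exact (e u χ q).symm⟩

theorem compl : IsCompl t.W (CC Q) :=
  ⟨disjoint_iff.2 ((Submodule.eq_bot_iff _).2 fun _ hx => t.W_zero hx.1 hx.2), codisjoint_iff.2 (eq_top_iff.2
    fun x _ => by
      obtain ⟨w, a, b⟩ := (perf t).1 x
      exact Submodule.mem_sup.2 ⟨w, a, _, b, by simp⟩)⟩

end Comp

theorem sl_gen [FiniteDimensional F V] (N : Subgroup (V ≃ₗ[F] V))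
    (hN : ∀ (v : V) (φ : Dual F V), φ v = 0 → ∃ g ∈ N, ∀ x, g x = x + φ x • v) {f : V ≃ₗ[F] V}
    (hf : LinearMap.det (f : V →ₗ[F] V) = 1) : f ∈ N := by
  let b := finBasis F V
  have := H4.sl_transvection_induction (fun A => ∃ g ∈ N, (g : V →ₗ[F] V) = Matrix.toLin b b A.1)
    ⟨1, one_mem _, by simp⟩ (fun i j h c => ?_) (fun A B ⟨g, m, e⟩ ⟨g', m', e'⟩ => ⟨g * g', mul_mem m m', by
      rw [Matrix.SpecialLinearGroup.coe_mul, Matrix.toLin_mul b b b, ← e, ← e']; rfl⟩)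
    ⟨LinearMap.toMatrix b b f, by rw [LinearMap.det_toMatrix, hf]⟩
  · obtain ⟨g, m, e⟩ := this
    rw [Matrix.toLin_toMatrix] at e
    rwa [← LinearEquiv.toLinearMap_injective e]
  · obtain ⟨g, m, e⟩ := hN (c • b i) (b.coord j) (by simp [h.symm, Finsupp.single_apply])
    refine ⟨g, m, b.ext fun k => ?_⟩
    rw [LinearEquiv.coe_coe, e, Matrix.SpecialLinearGroup.transvection_coe, map_add, Matrix.toLin_one]
    by_cases hk : k = j
    · subst hk; simp [Matrix.toLin_self, Matrix.single_apply, ite_and]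
    · simp [Matrix.toLin_self, Matrix.single_apply, hk, Ne.symm hk, Finsupp.single_apply]

theorem sp_gen [FiniteDimensional F V] (N : Subgroup (V ≃ₗ[F] V)) {B : LinearMap.BilinForm F V} (hA : B.IsAlt)
    (hB : ∀ x, (∀ y, B x y = 0) → x = 0)
    (hN : ∀ (v : V) (c : F), v ≠ 0 → c ≠ 0 → ∃ g ∈ N, ∀ x, g x = x + (c * B v x) • v) {f : V ≃ₗ[F] V}
    (hf : ∀ x y, B (f x) (f y) = B x y) : f ∈ N := by
  have := H4.alt_eq_top_of_transv (f := H4.altForm B hA) hB (N := N.subgroupOf _) fun g u c u0 e => by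
    rw [Subgroup.mem_subgroupOf]
    by_cases c0 : c = 0
    · rw [show g.1 = 1 from LinearEquiv.ext fun x => by simp [e.app, c0]]; exact one_mem _
    · obtain ⟨g', m, e'⟩ := hN u c u0 c0
      rwa [show g.1 = g' from LinearEquiv.ext fun x => by simp [e.app, e']]
  exact this.ge (Subgroup.mem_top (⟨f, (H4.Form.mem_Isom _).2 ⟨hf, fun _ => rfl⟩⟩ : (H4.altForm B hA).Isom))

end H5.ML
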