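import Cfsg.Agent.H5.RE11

/-! Small Ree groups: the minimal degree of a complex representation. -/

namespace H5.Ree
open scoped Pointwise MatrixGroups

namespace ReeS
variable {F : Type*} [Field F] [Fintype F] {m : ℕ} {G : Type*} [Group G] (S : ReeS F m G)

theorem four_dvd {V : Type*} [AddCommGroup V] [Module ℂ V] [FiniteDimensional ℂ V]
    (r : G →* Module.End ℂ V) (h : LinearMap.trace ℂ V (r S.a) = 0) : 4 ∣ Module.finrank ℂ V := by
  have h1 : ∀ x, IsConj S.a x → LinearMap.trace ℂ V (r x) = 0 := fun x hx => by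
    obtain ⟨c, rfl⟩ := isConj_iff.1 hx
    rw [map_mul, LinearMap.trace_mul_comm, ← map_mul, inv_mul_cancel_left, h]
  have h2 : r S.a * r S.a = 1 := by rw [← map_mul, a_mul_a, map_one]
  have h3 : r S.w * r S.w = 1 := by rw [← map_mul, S.w_mul_w, map_one]
  have h4 : Commute (r S.w) (r S.a) := by rw [Commute, SemiconjBy, ← map_mul, ← a_mul_w, map_mul]
  have key : ∀ x : Module.End ℂ V, x * x = 1 → IsIdempotentElem ((2 : ℂ)⁻¹ • (1 + x)) := fun x hx => by
    simp only [IsIdempotentElem, smul_mul_smul_comm, add_mul, mul_add, one_mul, mul_one, hx]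
    module
  have h5 := (key _ h3).mul_of_commute (((Commute.one_left _).add_left ((Commute.one_right _).add_right
    h4)).smul_left _ |>.smul_right _) (key _ h2)
  have h6 := (LinearMap.IsIdempotentElem.isProj_range _ h5).trace
  simp only [smul_mul_smul_comm, add_mul, mul_add, one_mul, mul_one, map_smul, map_add, ← map_mul, h,
    h1 _ S.isConj_w, h1 _ S.isConj_wa, LinearMap.trace_one, add_zero, smul_eq_mul] at h6
  exact ⟨_, Nat.cast_injective (R := ℂ) (by push_cast; rw [← h6]; ring)⟩

theorem min_degree {V : Type*} [AddCommGroup V] [Module ℂ V] [FiniteDimensional ℂ V]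
    (r : G →* Module.End ℂ V) (hr : r (S.u 0 0 1) ≠ 1) : Qn F ≤ Module.finrank ℂ V := by
  classical
  let ψ := AddChar.FiniteField.primitiveChar_to_Complex F
  have hψ : ψ.IsPrimitive := AddChar.FiniteField.primitiveChar_to_Complex_isPrimitive F
  have hq : (Fintype.card F : ℂ) ^ 2 ≠ 0 := pow_ne_zero _ (Nat.cast_ne_zero.2 Fintype.card_ne_zero)
  have hsum : ∀ p : F × F, ∑ x : F × F, ψ (x.1 * p.1 + x.2 * p.2) =
      if p = 0 then (Fintype.card F : ℂ) ^ 2 else 0 := fun p => by
    simp only [AddChar.map_add_eq_mul, Fintype.sum_prod_type, ← Finset.mul_sum, ← Finset.sum_mul]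
    rw [AddChar.sum_mulShift _ hψ, AddChar.sum_mulShift _ hψ]
    by_cases h1 : p.1 = 0 <;> by_cases h2 : p.2 = 0 <;> simp [h1, h2, sq, Prod.ext_iff]
  let W : F × F → Submodule ℂ V := fun s =>
    { carrier := {v | ∀ b c, r (S.u 0 b c) v = ψ (b * s.1 + c * s.2) • v}
      add_mem' := fun hv hw b c => by rw [map_add, hv, hw, smul_add]
      zero_mem' := fun b c => by simp
      smul_mem' := fun c v hv b d => by rw [map_smul, hv, smul_comm] }
  have hW : ∀ s v, v ∈ W s ↔ ∀ b c, r (S.u 0 b c) v = ψ (b * s.1 + c * s.2) • v := fun _ _ => Iff.rfl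
  let e : F × F → Module.End ℂ V := fun s => ∑ b : F × F, ψ (-(b.1 * s.1 + b.2 * s.2)) • r (S.u 0 b.1 b.2)
  have he1 : ∀ s v, e s v ∈ W s := by
    intro s v d d'
    simp only [e, LinearMap.sum_apply, LinearMap.smul_apply, map_sum, map_smul, Finset.smul_sum]
    refine Fintype.sum_equiv (Equiv.addLeft (d, d')) _ _ fun b => ?_
    rw [← Module.End.mul_apply, ← map_mul, y_mul, smul_smul, ← AddChar.map_add_eq_mul, Equiv.coe_addLeft]
    congr 2
    simp only [Prod.fst_add, Prod.snd_add]
    ring
  have he2 : ∀ s t v, v ∈ W t → e s v = (if s = t then (Fintype.card F : ℂ) ^ 2 else 0) • v := by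
    intro s t v hv
    simp only [e, LinearMap.sum_apply, LinearMap.smul_apply, (hW t v).1 hv, smul_smul, ← AddChar.map_add_eq_mul,
      ← Finset.sum_smul, eq_comm (a := s), ← sub_eq_zero (a := t), ← hsum]
    congr 1
    refine Finset.sum_congr rfl fun x _ => congrArg ψ ?_
    simp only [Prod.fst_sub, Prod.snd_sub]
    ring
  have he3 : ∑ s, e s = (Fintype.card F : ℂ) ^ 2 • 1 := by
    simp only [e]
    rw [Finset.sum_comm]
    have : ∀ b : F × F, ∑ s : F × F, ψ (-(b.1 * s.1 + b.2 * s.2)) =
        if b = 0 then (Fintype.card F : ℂ) ^ 2 else 0 := fun b => by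
      simp only [← neg_eq_zero (a := b), ← hsum]
      refine Finset.sum_congr rfl fun x _ => congrArg ψ ?_
      simp only [Prod.fst_neg, Prod.snd_neg]
      ring
    simp only [← Finset.sum_smul, this]
    simp
  have hh : ∀ (x : F) (k : Fˣ) s v, v ∈ W s → r (S.u x 0 0 * S.h k)⁻¹ v ∈
      W (k * S.σ k * (s.1 + x * s.2), k ^ 2 * S.σ k * s.2) := by
    intro x k s v hv b c
    have : S.u x 0 0 * S.h k * S.u 0 b c =
        S.u 0 (k * S.σ k * b) (k ^ 2 * S.σ k * c + x * (k * S.σ k * b)) * (S.u x 0 0 * S.h k) := by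
      rw [mul_assoc, h_mul_u, ← mul_assoc, ← mul_assoc, S.u_mul, S.u_mul]
      simp [mul_comm]
    rw [← Module.End.mul_apply, ← map_mul, mul_inv_eq_iff_eq_mul.2 (eq_inv_mul_iff_mul_eq.2 this |>.trans
      (mul_assoc _ _ _).symm), map_mul, Module.End.mul_apply, hv, map_smul]
    congr 2
    ring
  have hinj : ∀ (x : G) (v : V), r x v = 0 → v = 0 := fun x v h => by
    rw [← Module.End.one_apply (R := ℂ) v, ← map_one r, ← inv_mul_cancel x, map_mul, Module.End.mul_apply, h,
      map_zero]
  have hW1 : ∀ s : F × F, s.2 ≠ 0 → W s ≠ ⊥ := by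
    intro s hs h1
    apply hr
    ext v
    have h2 : ∀ t, r (S.u 0 0 1) (e t v) = e t v := by
      intro t
      by_cases ht : t.2 = 0
      · simpa [ht] using he1 t v 0 1
      obtain ⟨k, hk⟩ := S.χ3_surj' (div_ne_zero hs ht)
      have := hh ((s.1 / (k * S.σ k) - t.1) / t.2) k t _ (he1 t v)
      rw [hk, div_mul_cancel₀ _ ht, div_mul_cancel₀ _ ht, add_sub_cancel,
        mul_div_cancel₀ _ (mul_ne_zero k.ne_zero (S.σ_ne k.ne_zero)), h1, Submodule.mem_bot] at this
      rw [hinj _ _ this, map_zero]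
    have h3 := LinearMap.congr_fun he3 v
    have h4 := congrArg (r (S.u 0 0 1)) h3
    simp only [LinearMap.sum_apply, map_sum, h2] at h3 h4
    rw [h3] at h4
    simpa [hq] using h4.symm
  have hsum2 : ∑ s, Module.finrank ℂ (W s) ≤ Module.finrank ℂ V := by
    let f : (∀ s, W s) →ₗ[ℂ] V := ∑ s, (W s).subtype ∘ₗ LinearMap.proj s
    have := LinearMap.finrank_le_finrank_of_injective (f := f) (by
      rw [injective_iff_map_eq_zero]
      intro v hv
      ext t
      have h1 := congrArg (e t) hv
      simp only [f, LinearMap.sum_apply, LinearMap.comp_apply, LinearMap.proj_apply, map_sum,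
        Submodule.subtype_apply, he2 _ _ _ (v _).2, map_zero] at h1
      simpa [hq] using h1)
    rwa [Module.finrank_pi_fintype] at this
  have hcard : ∑ s : F × F, (if s.2 = 0 then 0 else 1) = Fintype.card F * (Fintype.card F - 1) := by
    rw [Fintype.sum_prod_type]
    simp [Finset.sum_ite, Finset.filter_ne', Finset.card_erase_of_mem]
  have hle : ∀ s : F × F, (if s.2 = 0 then 0 else 1) ≤ Module.finrank ℂ (W s) := fun s => by
    split_ifs with h
    · exact Nat.zero_le _
    · exact Submodule.one_le_finrank_iff.2 (hW1 s h)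
  have h1 := Finset.sum_le_sum fun s (_ : s ∈ Finset.univ) => hle s
  by_contra hlt
  have h2 : Module.finrank ℂ V ≤ Fintype.card F * (Fintype.card F - 1) := by
    rw [Qn, sq, ← Nat.mul_sub_one] at hlt
    omega
  have h3 := (Finset.sum_eq_sum_iff_of_le fun s (_ : s ∈ Finset.univ) => hle s).1 (by omega)
  have h4 : ∀ s, LinearMap.trace ℂ V (r S.a * e s) = 0 := by
    intro s
    by_cases hs : s.2 = 0
    · have h5 := h3 s (Finset.mem_univ _)
      rw [if_pos hs, eq_comm, Submodule.finrank_eq_zero] at h5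
      have : e s = 0 := LinearMap.ext fun v => h5.le (he1 s v)
      rw [this, mul_zero, map_zero]
    have e1 : e s * e s = (Fintype.card F : ℂ) ^ 2 • e s := LinearMap.ext fun v => by
      simpa using he2 s s _ (he1 s v)
    have e2 : e s * (r S.a * e s) = 0 := LinearMap.ext fun v => by
      have := he2 s _ _ (hh 0 (-1) s _ (he1 s v))
      rw [u_zero, one_mul, ← ReeS.a, a_inv, if_neg, zero_smul] at this
      · exact this
      · intro h
        have := congrArg Prod.snd h
        simp only [Units.val_neg, Units.val_one, map_neg, map_one] at this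
        exact hs (mul_left_cancel₀ S.two_ne (by linear_combination this))
    have := congrArg (LinearMap.trace ℂ V) e2
    rw [LinearMap.trace_mul_comm, mul_assoc, e1, mul_smul_comm, map_smul, map_zero, smul_eq_zero] at this
    exact this.resolve_left hq
  have h5 := congrArg (fun x => LinearMap.trace ℂ V (r S.a * x)) he3
  simp only [Finset.mul_sum, map_sum, h4, Finset.sum_const_zero, mul_smul_comm, map_smul, mul_one] at h5
  have h6 := S.four_dvd r ((smul_eq_zero.1 h5.symm).resolve_left hq)
  rw [show Module.finrank ℂ V = Fintype.card F * (Fintype.card F - 1) by omega] at h6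
  obtain ⟨k, hk⟩ : ∃ k, Fintype.card F = 8 * k + 3 := ⟨Fintype.card F / 8, by have := S.card_mod; omega⟩
  rw [hk, show (8 * k + 3) * (8 * k + 3 - 1) = 4 * (16 * k ^ 2 + 10 * k + 1) + 2 by
    rw [show 8 * k + 3 - 1 = 8 * k + 2 from rfl]; ring] at h6
  omega

end ReeS

end H5.Ree
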