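import Cfsg.Agent.H5.SZ11

/-! Suzuki groups: conjugacy classes of 2-elements and solubilizers. -/

namespace H5.Sz
open scoped Pointwise

theorem double_count {G : Type*} [Finite G] (K D : Set G) (r : G → G → Prop) :
    ∑ᶠ x ∈ K, {c ∈ D | r x c}.ncard = ∑ᶠ c ∈ D, {x ∈ K | r x c}.ncard := by
  classical
  letI := Fintype.ofFinite G
  rw [finsum_mem_eq_toFinset_sum, finsum_mem_eq_toFinset_sum]
  have := Finset.sum_card_bipartiteAbove_eq_sum_card_bipartiteBelow (s := K.toFinset) (t := D.toFinset) r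
  convert this using 2
  · rw [Set.ncard_eq_toFinset_card']
    congr 1
    ext; simp
  · rw [Set.ncard_eq_toFinset_card']
    congr 1
    ext; simp

theorem finsum_const {G : Type*} [Finite G] (K : Set G) (f : G → ℕ) (n : ℕ) (h : ∀ x ∈ K, f x = n) :
    ∑ᶠ x ∈ K, f x = K.ncard * n := by
  classical
  letI := Fintype.ofFinite G
  rw [finsum_mem_congr rfl h, finsum_mem_eq_toFinset_sum, Finset.sum_const, Set.ncard_eq_toFinset_card',
    smul_eq_mul]

namespace SzS
variable {F : Type*} [Field F] [Fintype F] {m : ℕ} {G : Type*} [Group G] (S : SzS F m G)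

theorem θ_add_ne_one (c : F) : S.θ c + c ≠ 1 := by
  have := S.charP
  intro h4
  have h5 := congrArg S.θ h4
  rw [map_add, θθ, map_one] at h5
  have h6 : c * (c + 1) = 0 := by grind
  rcases mul_eq_zero.1 h6 with h7 | h7
  · simp [h7] at h4
  · have : c = 1 := by grind
    rw [this, map_one] at h4
    grind

theorem exists_θ_add (b : F) : ∃ c, S.θ c + c = b ∨ S.θ c + c = b + 1 := by
  have := S.charP
  let L : F →+ F := S.θ.toAddMonoidHom + AddMonoidHom.id F
  have hL : ∀ c, L c = S.θ c + c := fun _ => rfl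
  have h1 : Nat.card L.ker = 2 := by
    rw [Nat.card_eq_two_iff' 0]
    refine ⟨⟨1, by rw [AddMonoidHom.mem_ker, hL, map_one]; grind⟩, fun h => one_ne_zero (congrArg Subtype.val h), ?_⟩
    rintro ⟨c, hc⟩ h
    rw [AddMonoidHom.mem_ker, hL] at hc
    exact Subtype.ext ((S.θ_fix (by grind)).resolve_left fun h' => h (Subtype.ext h'))
  have h2 : L.range.index = 2 := by
    have e1 := L.range.index_mul_card
    have e2 := L.ker.index_mul_card
    rw [AddSubgroup.index_ker, h1, ← e1, mul_comm] at e2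
    exact (Nat.eq_of_mul_eq_mul_right Nat.card_pos e2).symm
  by_cases h : b ∈ L.range
  · obtain ⟨c, hc⟩ := h
    exact ⟨c, Or.inl hc⟩
  · obtain ⟨c, hc⟩ := (AddSubgroup.add_mem_iff_of_index_two h2 (a := b) (b := 1)).2
      (iff_of_false h fun ⟨c, hc⟩ => S.θ_add_ne_one c hc)
    exact ⟨c, Or.inr hc⟩

theorem conj_into_U {x : G} {n : ℕ} (h : x ^ 2 ^ n = 1) : ∃ g a b, x = g * S.u a b * g⁻¹ := by
  obtain ⟨ω, hω⟩ := S.mem_P_of_two h
  obtain ⟨k, rfl⟩ := S.exists_smul_inf ω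
  rw [mem_P_smul, P_inf] at hω
  obtain ⟨a, b, h⟩ := hω
  exact ⟨k, a, b, by rw [← h]; group⟩

theorem isConj_of_two {x : G} (h : orderOf x = 2) : ∃ g, x = g * S.u 0 1 * g⁻¹ := by
  have h1 : x ^ 2 = 1 := h ▸ pow_orderOf_eq_one x
  obtain ⟨g, a, b, rfl⟩ := S.conj_into_U (n := 1) h1
  rw [conj_pow, conj_eq_one_iff, u_sq_eq_one] at h1
  subst h1
  have hb : b ≠ 0 := by
    rintro rfl
    simp at h
  obtain ⟨t, ht⟩ := S.exists_conj_z hb
  refine ⟨g * S.h t, ?_⟩
  rw [← mul_one b, ← ht]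
  group

theorem isConj_of_four {x : G} (h : orderOf x = 4) :
    ∃ g, x = g * S.u 1 0 * g⁻¹ ∨ x = g * (S.u 1 0)⁻¹ * g⁻¹ := by
  have := S.charP
  obtain ⟨g, a, b, rfl⟩ := S.conj_into_U (n := 2) (h ▸ pow_orderOf_eq_one x)
  have ha : a ≠ 0 := by
    rintro rfl
    have := orderOf_dvd_of_pow_eq_one (x := g * S.u 0 b * g⁻¹) (n := 2)
      (by rw [conj_pow, S.u_sq_eq_one.2 rfl]; simp)
    rw [h] at this
    omega
  have ha' : a * S.θ a ≠ 0 := by simp [ha]
  obtain ⟨c, hc⟩ := S.exists_θ_add (b / (a * S.θ a))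
  refine ⟨g * S.h (Units.mk0 a ha) * S.u c 0, ?_⟩
  have key : ∀ d, g * S.h (Units.mk0 a ha) * S.u c 0 * S.u 1 d * (g * S.h (Units.mk0 a ha) * S.u c 0)⁻¹ =
      g * S.u a (a * S.θ a * (d + (S.θ c + c))) * g⁻¹ := by
    intro d
    have e := S.conj_u c 0 1 1 d
    rw [map_one, mul_one] at e
    calc _ = g * (S.h (Units.mk0 a ha) * (S.u c 0 * S.u 1 d * (S.u c 0)⁻¹) * (S.h (Units.mk0 a ha))⁻¹) * g⁻¹ := by
          group
      _ = _ := by rw [e, h_u]; simp [add_assoc]
  rw [u_inv, key, key]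
  rcases hc with hc | hc <;> rw [hc]
  · left
    rw [zero_add, mul_div_cancel₀ _ ha']
  · right
    congr 3
    field_simp
    simp only [map_one]
    grind

include S in
theorem ncard_two : {x : G | orderOf x = 2}.ncard = (Fintype.card F ^ 2 + 1) * (Fintype.card F - 1) := by
  have := S.finite
  have h := card_conjSet (S.Zc S.inf) fun c y hy h1 hc => by
    rw [normalizer_Zc, ← normalizer_P]
    exact Part.ti (S := S) (Or.inl ⟨_, rfl⟩) (S.Zc_le_P _ hy) h1 (S.Zc_le_P _ hc)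
  rw [normalizer_Zc, index_stab, card_Zc, Nat.card_coe_set_eq] at h
  rw [← h]
  congr 1
  ext x
  constructor
  · intro hx
    obtain ⟨g, rfl⟩ := S.isConj_of_two hx
    exact ⟨g, _, S.Zc_inf ▸ S.z_mem 1, by simp [u_eq_one], rfl⟩
  · rintro ⟨c, y, hy, h1, rfl⟩
    exact orderOf_eq_prime (by rw [conj_pow, hy.2]; simp) (by simpa using h1)

omit S in
theorem order_cases {x : G} (h : x ^ 4 = 1) (h1 : x ≠ 1) : orderOf x = 2 ∨ orderOf x = 4 := by
  obtain ⟨i, hi, h2⟩ := (Nat.dvd_prime_pow Nat.prime_two).1 (orderOf_dvd_of_pow_eq_one (n := 2 ^ 2) h)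
  interval_cases i
  · exact absurd (orderOf_eq_one_iff.1 h2) h1
  · exact Or.inl h2
  · exact Or.inr h2

include S in
theorem ncard_four : {x : G | orderOf x = 4}.ncard =
    (Fintype.card F ^ 2 + 1) * (Fintype.card F * (Fintype.card F - 1)) := by
  have := S.finite
  have h := card_conjSet (S.P S.inf) fun c y hy h1 hc => Part.ti (S := S) (Or.inl ⟨_, rfl⟩) hy h1 hc
  rw [normalizer_P, index_stab, card_P, Nat.card_coe_set_eq] at h
  have h2 : conjSet (S.P S.inf) = {x : G | orderOf x = 2} ∪ {x : G | orderOf x = 4} := by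
    ext x
    constructor
    · rintro ⟨c, y, hy, h1, rfl⟩
      exact order_cases (by rw [conj_pow, hy.2]; simp) (by simpa using h1)
    · intro hx
      have h3 : x ^ 2 ^ 2 = 1 := by
        apply orderOf_dvd_iff_pow_eq_one.1
        rcases hx with hx | hx <;> rw [Set.mem_ofPred_eq.mp hx] <;> norm_num
      obtain ⟨g, a, b, rfl⟩ := S.conj_into_U h3
      refine ⟨g, _, S.P_inf ▸ S.u_mem a b, fun h => ?_, rfl⟩
      rcases hx with hx | hx <;> simp [h] at hx
  rw [h2, Set.ncard_union_eq (by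
    rw [Set.disjoint_left]; intro x h1 h2; simp only [Set.mem_ofPred_eq] at h1 h2; omega), S.ncard_two] at h
  have h8 := S.eight_le
  obtain ⟨q, hq⟩ : ∃ q, Fintype.card F = q + 1 := ⟨Fintype.card F - 1, by omega⟩
  rw [hq] at h ⊢
  rw [show (q + 1) ^ 2 - 1 = q + (q + 1) * q by rw [Nat.sub_eq_iff_eq_add (Nat.one_le_pow _ _ (by omega))]; ring,
    Nat.add_sub_cancel, mul_add] at h
  rw [Nat.add_sub_cancel]
  omega

theorem sum_free : 2 * ∑ᶠ c ∈ {c | S.Free c}, Nat.card (Subgroup.centralizer ({c} : Set G)) =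
    Nat.card G * Fintype.card F := by
  have := S.finite
  obtain ⟨g1, g2, h1, h2, h3, h4, h5, h6, h7⟩ := S.tori
  obtain ⟨n1, -, -, a1, b1, -⟩ := h1.card_DD
  obtain ⟨n2, -, -, a2, b2, -⟩ := h2.card_DD
  obtain rfl : n1 = 4 := Nat.eq_of_mul_eq_mul_right Nat.card_pos (a1.symm.trans h6)
  obtain rfl : n2 = 4 := Nat.eq_of_mul_eq_mul_right Nat.card_pos (a2.symm.trans h7)
  have h8 : 2 ^ (m + 1) ≤ 2 ^ (2 * m + 1) := Nat.pow_le_pow_right (by norm_num) (by omega)
  have h9 : 0 < 2 ^ (m + 1) := by positivity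
  rw [show {c | S.Free c} = DD g1 ∪ DD g2 from Set.Subset.antisymm h3
      (Set.union_subset (fun _ => h1.free_of_DD) fun _ => h2.free_of_DD),
    finsum_mem_union (by
      rw [Set.disjoint_left]
      intro x e1 e2
      have := (h1.card_cent_DD e1).1.symm.trans (h2.card_cent_DD e2).1
      omega) (Set.toFinite _) (Set.toFinite _),
    finsum_const _ _ _ fun x hx => (h1.card_cent_DD hx).1, finsum_const _ _ _ fun x hx => (h2.card_cent_DD hx).1]
  rw [h4] at b1 ⊢
  rw [h5] at b2 ⊢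
  rw [S.hF]
  rw [Nat.add_sub_cancel] at b1 b2
  zify [h8] at b1 b2 ⊢
  linarith

variable {S}

theorem opart_cent {c : G} (h : ∀ ω, c ∉ S.P ω) : S.OPart (Subgroup.centralizer {c}) := by
  rcases S.cases c with ⟨ω, h1⟩ | ⟨α, β, h1, h2⟩ | h1
  · exact absurd h1 (h ω)
  · exact Or.inl ⟨α, β, h1, S.centralizer_T h1 h2 fun h' => h α (h' ▸ Subgroup.one_mem _)⟩
  · exact Or.inr ⟨c, h1, rfl⟩

theorem exists_inv {N : Subgroup G} {ω : S.Ω} {x : G} (hx : x ∈ S.P ω) (h1 : x ≠ 1) (hN : x ∈ N) :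
    ∃ z ∈ S.Zc ω, z ≠ 1 ∧ ∀ N : Subgroup G, x ∈ N → z ∈ N := by
  by_cases h : x ^ 2 = 1
  · exact ⟨x, ⟨hx.1, h⟩, h1, fun _ h => h⟩
  · exact ⟨x ^ 2, S.sq_mem_Zc hx, h, fun N h => N.pow_mem h 2⟩

theorem OPart.decomp {U : Subgroup G} (h : S.OPart U) {ω : S.Ω} {z y : G} (hz : z ∈ S.Zc ω) (h1 : z ≠ 1)
    (hN : z ∈ Subgroup.normalizer (U : Set G)) (hy : y ∈ Subgroup.normalizer (U : Set G)) :
    ∃ c ∈ U, c⁻¹ * y ∈ S.P ω := by
  have h2 := h.mul_mem hN h1 hz.2 (z' := y * z * y⁻¹)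
    (Subgroup.mul_mem _ (Subgroup.mul_mem _ hy hN) (Subgroup.inv_mem _ hy)) (by simpa using h1)
    (by rw [conj_pow, hz.2]; simp)
  obtain ⟨d, hd, h3⟩ : ∃ d ∈ U, d ^ 2 = z * (y * z * y⁻¹) := by
    generalize z * (y * z * y⁻¹) = c at h2
    by_cases hc : c = 1
    · exact ⟨1, U.one_mem, by simp [hc]⟩
    obtain ⟨k, hk⟩ := exists_pow_eq_self_of_coprime (x := c) (n := 2)
      (Nat.coprime_two_left.2 (S.odd_orderOf fun ω h' => hc (h.eq_one h2 h')))
    exact ⟨c ^ k, U.pow_mem h2 k, by rw [← pow_mul, mul_comm, pow_mul, hk]⟩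
  refine ⟨d⁻¹, U.inv_mem hd, ?_⟩
  rw [← S.centralizer_Zc hz h1, Subgroup.mem_centralizer_singleton_iff, inv_inv]
  have h4 := h.inverts hN h1 hz.2 hd
  have h5 : z * z = 1 := by rw [← pow_two, hz.2]
  calc d * y * z = d * z⁻¹ * (z * (y * z * y⁻¹)) * y := by group
    _ = z⁻¹ * (z * d * z⁻¹) * d ^ 2 * y := by rw [← h3]; group
    _ = _ := by rw [h4, inv_eq_of_mul_eq_one_right h5]; group

theorem OPart.card_inf {U : Subgroup G} (h : S.OPart U) {ω : S.Ω} {z : G} (hz : z ∈ S.Zc ω) (h1 : z ≠ 1)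
    (hN : z ∈ Subgroup.normalizer (U : Set G)) : Nat.card (Subgroup.normalizer (U : Set G)) =
      Nat.card ↥(Subgroup.normalizer (U : Set G) ⊓ S.P ω) * Nat.card U := by
  rw [mul_comm, ← Nat.card_prod]
  symm
  refine Nat.card_congr (Equiv.ofBijective (fun p => ⟨p.1 * p.2, Subgroup.mul_mem _ (U.le_normalizer p.1.2)
    p.2.2.1⟩) ⟨?_, ?_⟩)
  · rintro ⟨c, r⟩ ⟨c', r'⟩ h2
    have h3 : (c : G) * r = c' * r' := congrArg Subtype.val h2
    have h4 : (c' : G)⁻¹ * c = r' * (r : G)⁻¹ := by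
      rw [inv_mul_eq_iff_eq_mul, ← mul_assoc, ← h3, mul_inv_cancel_right]
    have h5 := h.eq_one (U.mul_mem (U.inv_mem c'.2) c.2)
      (h4 ▸ (S.P ω).mul_mem r'.2.2 ((S.P ω).inv_mem r.2.2))
    have h6 : c' = c := Subtype.ext (inv_mul_eq_one.1 h5)
    subst h6
    exact Prod.ext rfl (Subtype.ext (mul_left_cancel h3))
  · rintro ⟨y, hy⟩
    obtain ⟨c, hc, h2⟩ := h.decomp hz h1 hN hy
    exact ⟨⟨⟨c, hc⟩, ⟨c⁻¹ * y, Subgroup.mul_mem _ (Subgroup.inv_mem _ (U.le_normalizer hc)) hy, h2⟩⟩,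
      Subtype.ext (by simp)⟩

theorem OPart.not_fix {U : Subgroup G} (h : S.OPart U) {ω : S.Ω} {z c : G} (hz : z ∈ S.Zc ω) (h1 : z ≠ 1)
    (hN : z ∈ Subgroup.normalizer (U : Set G)) (hc : c ∈ U) (h2 : c • ω = ω) : c = 1 := by
  have h3 : c * z * c⁻¹ ∈ S.Zc ω := by
    rw [← h2, mem_Zc_smul]; simpa [mul_assoc] using hz
  have h4 := h.unique_inv (Subgroup.mul_mem _ (Subgroup.mul_mem _ (U.le_normalizer hc) hN)
    (Subgroup.inv_mem _ (U.le_normalizer hc))) hN h3 hz (by simpa using h1) h1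
  refine h.eq_one hc (ω := ω) ?_
  rw [← S.centralizer_Zc hz h1, Subgroup.mem_centralizer_singleton_iff, ← mul_inv_eq_iff_eq_mul, h4]

theorem OPart.eq_of_mem {U V : Subgroup G} (hU : S.OPart U) (hV : S.OPart V) {ω : S.Ω} {z y : G}
    (hz : z ∈ S.Zc ω) (h1 : z ≠ 1) (hN : z ∈ Subgroup.normalizer (U : Set G))
    (hN' : z ∈ Subgroup.normalizer (V : Set G)) (hy : y ∈ Subgroup.normalizer (U : Set G))
    (hy' : y ∈ Subgroup.normalizer (V : Set G)) (h2 : y • ω ≠ ω) : U = V := by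
  have e1 : y * z * y⁻¹ ≠ 1 := by simpa using h1
  have e2 : (y * z * y⁻¹) ^ 2 = 1 := by rw [conj_pow, hz.2]; simp
  refine hU.part.unique hV.part (g := z * (y * z * y⁻¹)) (fun h => h2 ?_)
    (hU.mul_mem hN h1 hz.2 (Subgroup.mul_mem _ (Subgroup.mul_mem _ hy hN) (Subgroup.inv_mem _ hy)) e1 e2)
    (hV.mul_mem hN' h1 hz.2 (Subgroup.mul_mem _ (Subgroup.mul_mem _ hy' hN') (Subgroup.inv_mem _ hy')) e1 e2)
  refine S.P_fix (S.Zc_le_P _ hz) h1 ?_
  have e3 : z = y * z * y⁻¹ :=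
    (eq_inv_of_mul_eq_one_left h).trans (inv_eq_of_mul_eq_one_right (by rw [← pow_two, e2]))
  rw [← mul_smul, ← mul_inv_eq_iff_eq_mul.1 e3.symm, mul_smul, hz.1]

variable (S)

/-- the solubilizer -/
def Sol (x : G) : Set G := {y | Group.IsSolvable (Subgroup.closure ({x, y} : Set G))}

theorem mem_Sol {x y : G} : y ∈ Sol x ↔ ∃ U, S.Part U ∧ x ∈ Subgroup.normalizer (U : Set G) ∧
    y ∈ Subgroup.normalizer (U : Set G) := by
  simp only [Sol, Set.mem_ofPred_eq, S.solvable_iff, Subgroup.closure_le, Set.insert_subset_iff,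
    Set.singleton_subset_iff, SetLike.mem_coe]

theorem card_Sol_free {x : G} (h : S.Free x) :
    (Sol x).ncard = 4 * Nat.card (Subgroup.centralizer ({x} : Set G)) := by
  rw [← h.card_normalizer, ← Nat.card_coe_set_eq]
  congr 2
  ext y
  rw [S.mem_Sol]
  constructor
  · rintro ⟨U, hU, h1, h2⟩
    rwa [h.eq_of_mem_normalizer hU h1] at h2
  · intro hy
    exact ⟨_, Or.inr (Or.inr ⟨x, h, rfl⟩),
      Subgroup.le_normalizer (Subgroup.mem_centralizer_singleton_iff.2 rfl), hy⟩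

theorem card_Sol_T {x : G} {α β : S.Ω} (h : α ≠ β) (hx : x ∈ S.T α β) (h1 : x ≠ 1) :
    (Sol x).ncard = 2 * Fintype.card F ^ 2 * (Fintype.card F - 1) := by
  have := S.finite
  have h2 : Sol x = ((MulAction.stabilizer G α : Set G) ∪ MulAction.stabilizer G β) ∪
      Subgroup.normalizer (S.T α β : Set G) := by
    ext y
    rw [S.mem_Sol]
    constructor
    · rintro ⟨U, ⟨ω, rfl⟩ | hU, h3, h4⟩
      · rw [normalizer_P] at h3 h4
        left
        rcases S.T_fix h hx h1 h3 with rfl | rfl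
        · exact Or.inl h4
        · exact Or.inr h4
      · right
        have h5 := OPart.mem_of_not_P hU h3 fun ω h5 => h1 (S.T_sq h hx (n := 2) h5.2)
        rwa [← OPart.cent_eq hU h5 h1, S.centralizer_T h hx h1] at h4
    · rintro ((hy | hy) | hy)
      · exact ⟨_, Or.inl ⟨α, rfl⟩, S.normalizer_P α ▸ hx.1, S.normalizer_P α ▸ hy⟩
      · exact ⟨_, Or.inl ⟨β, rfl⟩, S.normalizer_P β ▸ hx.2, S.normalizer_P β ▸ hy⟩
      · exact ⟨_, Or.inr (Or.inl ⟨α, β, h, rfl⟩), Subgroup.le_normalizer hx, hy⟩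
  have e1 := Set.ncard_union_add_ncard_inter (MulAction.stabilizer G α : Set G) (MulAction.stabilizer G β)
  have e2 := Set.ncard_union_add_ncard_inter ((MulAction.stabilizer G α : Set G) ∪ MulAction.stabilizer G β)
    (Subgroup.normalizer (S.T α β : Set G))
  have e3 : ((MulAction.stabilizer G α : Set G) ∪ MulAction.stabilizer G β) ∩
      Subgroup.normalizer (S.T α β : Set G) = S.T α β := by
    ext y
    constructor
    · rintro ⟨h3, h4⟩
      rcases (S.mem_normalizer_T h le_rfl (S.T_ne_bot h)).1 h4 with h5 | ⟨h5, h6⟩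
      · exact h5
      · rcases h3 with h3 | h3
        · exact absurd (Eq.trans (Eq.symm h3) h5) h
        · exact absurd (h6.symm.trans h3) h
    · intro hy
      exact ⟨Or.inl hy.1, Subgroup.le_normalizer hy⟩
  have hc : ∀ A : Subgroup G, (A : Set G).ncard = Nat.card A := fun A => (Nat.card_coe_set_eq _).symm
  rw [← Subgroup.coe_inf, hc, hc, hc, card_stab, card_stab, ← T, S.card_TT h] at e1
  rw [e3, hc, hc, S.card_normalizer_T h le_rfl (S.T_ne_bot h), S.card_TT h, ← h2] at e2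
  rw [mul_assoc]
  omega

/-- odd order elements whose centraliser is normalised by `x` -/
def OO (x : G) : Set G :=
  {c | (∀ ω, c ∉ S.P ω) ∧ x ∈ Subgroup.normalizer (Subgroup.centralizer ({c} : Set G) : Set G)}

def OF (x : G) : Set G :=
  {c ∈ {c | S.Free c} | x ∈ Subgroup.normalizer (Subgroup.centralizer ({c} : Set G) : Set G)}

theorem OF_subset (x : G) : S.OF x ⊆ S.OO x := fun _ h => ⟨fun ω h' => h.1 ω h'.1, h.2⟩

theorem card_Sol_P {x : G} {ω : S.Ω} (hx : x ∈ S.P ω) (h1 : x ≠ 1) :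
    (Sol x).ncard = Fintype.card F ^ 2 * (Fintype.card F - 1) + (2 * (S.OO x).ncard + 2 * (S.OF x).ncard) := by
  classical
  have := S.finite
  obtain ⟨z, hz, hz1, hzN⟩ := exists_inv hx h1 (Subgroup.mem_top x)
  have hB : (MulAction.stabilizer G ω : Set G) ⊆ Sol x := fun y hy =>
    S.mem_Sol.2 ⟨_, Or.inl ⟨ω, rfl⟩, S.normalizer_P ω ▸ hx.1, S.normalizer_P ω ▸ hy⟩
  rw [← Set.ncard_sdiff_add_ncard_of_subset hB, add_comm, ← Nat.card_coe_set_eq, SetLike.coe_sort_coe, card_stab]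
  congr 1
  have e : Nat.card (Σ c : S.OO x, ↥(Subgroup.normalizer (Subgroup.centralizer ({c.1} : Set G) : Set G) ⊓ S.P ω)) =
      Nat.card ↥(Sol x \ MulAction.stabilizer G ω) := by
    refine Nat.card_congr (Equiv.ofBijective (fun p => ⟨p.1 * p.2, S.mem_Sol.2 ⟨_, (opart_cent p.1.2.1).part,
      p.1.2.2, Subgroup.mul_mem _ (Subgroup.le_normalizer (Subgroup.mem_centralizer_singleton_iff.2 rfl))
        p.2.2.1⟩, fun h => p.1.2.1 ω ?_⟩) ⟨?_, ?_⟩)
    · rw [SetLike.mem_coe, MulAction.mem_stabilizer_iff, mul_smul, p.2.2.2.1] at h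
      rw [(opart_cent p.1.2.1).not_fix hz hz1 (hzN _ p.1.2.2) (Subgroup.mem_centralizer_singleton_iff.2 rfl) h]
      exact Subgroup.one_mem _
    · rintro ⟨⟨c, hc⟩, r, hr⟩ ⟨⟨c', hc'⟩, r', hr'⟩ h2
      have h3 : c * r = c' * r' := congrArg Subtype.val h2
      have hcc : c ∈ Subgroup.centralizer ({c} : Set G) := Subgroup.mem_centralizer_singleton_iff.2 rfl
      have hcc' : c' ∈ Subgroup.centralizer ({c'} : Set G) := Subgroup.mem_centralizer_singleton_iff.2 rfl
      have h4 := (opart_cent hc.1).eq_of_mem (opart_cent hc'.1) hz hz1 (hzN _ hc.2) (hzN _ hc'.2) (y := c * r)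
        (Subgroup.mul_mem _ (Subgroup.le_normalizer hcc) hr.1)
        (h3 ▸ Subgroup.mul_mem _ (Subgroup.le_normalizer hcc') hr'.1) (fun h => hc.1 ω (by
          rw [mul_smul, hr.2.1] at h
          rw [(opart_cent hc.1).not_fix hz hz1 (hzN _ hc.2) hcc h]
          exact Subgroup.one_mem _))
      have h5 : c'⁻¹ * c = r' * r⁻¹ := by
        rw [inv_mul_eq_iff_eq_mul, ← mul_assoc, ← h3, mul_inv_cancel_right]
      have h6 := (opart_cent hc.1).eq_one (Subgroup.mul_mem _ (Subgroup.inv_mem _ (h4 ▸ hcc')) hcc)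
        (h5 ▸ (S.P ω).mul_mem hr'.2 ((S.P ω).inv_mem hr.2))
      obtain rfl := inv_mul_eq_one.1 h6
      obtain rfl := mul_left_cancel h3
      rfl
    · rintro ⟨y, hy, hy'⟩
      obtain ⟨U, ⟨α, rfl⟩ | hU, h2, h3⟩ := S.mem_Sol.1 hy
      · rw [normalizer_P] at h2 h3
        exact absurd (S.P_fix hx h1 h2 ▸ h3) hy'
      obtain ⟨c, hc, h4⟩ := OPart.decomp hU hz hz1 (hzN _ h2) h3
      have hc1 : c ≠ 1 := by
        rintro rfl
        exact hy' (by simpa using h4.1)
      have h5 := OPart.cent_eq hU hc hc1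
      exact ⟨⟨⟨c, fun α h => hc1 (OPart.eq_one hU hc h), h5 ▸ h2⟩, c⁻¹ * y,
        by simp only [h5]; exact Subgroup.mul_mem _ (Subgroup.inv_mem _ (U.le_normalizer hc)) h3, h4⟩, Subtype.ext (by simp)⟩
  letI := Fintype.ofFinite (S.OO x)
  rw [← Nat.card_coe_set_eq, ← e, Nat.card_sigma]
  rw [Finset.sum_congr rfl (g := fun c => 2 + if c.1 ∈ S.OF x then 2 else 0) (fun c _ => by
    have h2 := (opart_cent c.2.1).card_inf hz hz1 (hzN _ c.2.2)
    split_ifs with h3
    · rw [Free.card_normalizer h3.1] at h2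
      exact (Nat.eq_of_mul_eq_mul_right Nat.card_pos h2).symm
    · rcases S.cases c.1 with ⟨α, h4⟩ | ⟨α, β, h4, h5⟩ | h4
      · exact absurd h4 (c.2.1 α)
      · rw [S.centralizer_T h4 h5 fun h' => c.2.1 α (h' ▸ Subgroup.one_mem _)] at h2 ⊢
        rw [S.card_normalizer_T h4 le_rfl (S.T_ne_bot h4), ← S.card_TT h4] at h2
        exact (Nat.eq_of_mul_eq_mul_right Nat.card_pos h2).symm
      · exact absurd ⟨h4, c.2.2⟩ h3)]
  rw [Finset.sum_add_distrib, Finset.sum_const, Finset.card_univ, ← Nat.card_eq_fintype_card, smul_eq_mul,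
    Nat.card_coe_set_eq, mul_comm, ← Finset.sum_filter, Finset.sum_const, smul_eq_mul, mul_comm]
  congr 1
  rw [mul_comm, ← Set.ncard_coe_finset, ← Set.ncard_image_of_injective _ Subtype.val_injective]
  congr 1
  congr 1
  ext c
  simp only [Finset.coe_filter, Finset.mem_univ, true_and, Set.mem_image, Set.mem_ofPred_eq, Subtype.exists,
    exists_and_left, exists_prop, exists_eq_right_right]
  exact ⟨fun h => h.1, fun h => ⟨h, S.OF_subset x h⟩⟩

theorem ncard_OF_conj (x g : G) : (S.OF (g * x * g⁻¹)).ncard = (S.OF x).ncard := by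
  rw [← Set.ncard_image_of_injective (S.OF x) (MulAut.conj g).injective]
  congr 1
  ext c
  obtain ⟨c, rfl⟩ := (MulAut.conj g).surjective c
  rw [(MulAut.conj g).injective.mem_set_image]
  have : Subgroup.normalizer ((MulAut.conj g • Subgroup.centralizer ({c} : Set G) : Subgroup G) : Set G) =
      MulAut.conj g • Subgroup.normalizer (Subgroup.centralizer ({c} : Set G) : Set G) :=
    (Subgroup.map_equiv_normalizer_eq _ (MulAut.conj g)).symm
  simp only [OF, Set.mem_ofPred_eq, MulAut.conj_apply, centralizer_conj, this,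
    Subgroup.mem_pointwise_smul_iff_inv_smul_mem]
  refine and_congr ⟨fun h => by simpa [mul_assoc] using h.conj g⁻¹, fun h => h.conj g⟩ (by simp [mul_assoc])

theorem OF_inv (x : G) : S.OF x⁻¹ = S.OF x := by
  ext c
  simp [OF]

variable {S}

theorem Free.ncard_two {c : G} (h : S.Free c) : {x ∈ {x : G | orderOf x = 2} |
    x ∈ Subgroup.normalizer (Subgroup.centralizer ({c} : Set G) : Set G)}.ncard =
      Nat.card (Subgroup.centralizer ({c} : Set G)) := by
  have := S.finite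
  have hU : S.OPart (Subgroup.centralizer {c}) := Or.inr ⟨c, h, rfl⟩
  obtain ⟨⟨z, hz⟩, h1⟩ := exists_prime_orderOf_dvd_card' (G := Subgroup.normalizer
    (Subgroup.centralizer ({c} : Set G) : Set G)) 2 (by rw [h.card_normalizer]; omega)
  rw [Subgroup.orderOf_mk] at h1
  have h2 : z ≠ 1 := by rintro rfl; simp at h1
  have h3 : z ^ 2 = 1 := h1 ▸ pow_orderOf_eq_one z
  have h4 : z * z = 1 := by rw [← pow_two, h3]
  rw [← Nat.card_coe_set_eq]
  refine Nat.card_congr ⟨fun x => ⟨z * x, hU.mul_mem hz h2 h3 x.2.2 (fun h => by simpa [h] using x.2.1)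
    (orderOf_dvd_iff_pow_eq_one.1 (Eq.dvd x.2.1))⟩, fun y => ⟨z * y, orderOf_eq_prime ?_ ?_,
      Subgroup.mul_mem _ hz (Subgroup.le_normalizer y.2)⟩, fun x => ?_, fun y => ?_⟩
  · calc (z * y) ^ 2 = z * y * z⁻¹ * (z * z) * y := by rw [pow_two]; group
      _ = 1 := by rw [hU.inverts hz h2 h3 y.2, h4]; simp
  · intro h5
    obtain ⟨ω, hω⟩ := S.mem_Zc_of_sq h3
    exact h2 (hU.eq_one (by rw [eq_inv_of_mul_eq_one_left h5]; exact Subgroup.inv_mem _ y.2) (S.Zc_le_P _ hω))
  · exact Subtype.ext (by simp [← mul_assoc, h4])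
  · exact Subtype.ext (by simp [← mul_assoc, h4])

theorem Free.ncard_four {c : G} (h : S.Free c) : {x ∈ {x : G | orderOf x = 4} |
    x ∈ Subgroup.normalizer (Subgroup.centralizer ({c} : Set G) : Set G)}.ncard =
      2 * Nat.card (Subgroup.centralizer ({c} : Set G)) := by
  have := S.finite
  have hU : S.OPart (Subgroup.centralizer {c}) := Or.inr ⟨c, h, rfl⟩
  have h1 := h.card_normalizer
  have h2 := h.ncard_two
  set U := Subgroup.centralizer ({c} : Set G)
  have h3 : (Subgroup.normalizer (U : Set G) : Set G) = (U : Set G) ∪ ({x ∈ {x : G | orderOf x = 2} |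
      x ∈ Subgroup.normalizer (U : Set G)} ∪ {x ∈ {x : G | orderOf x = 4} |
      x ∈ Subgroup.normalizer (U : Set G)}) := by
    ext y
    constructor
    · intro hy
      by_cases h4 : y ∈ U
      · exact Or.inl h4
      right
      obtain ⟨ω, hω⟩ : ∃ ω, y ∈ S.P ω := by
        by_contra h5
        push Not at h5
        exact h4 (hU.mem_of_not_P hy h5)
      exact (order_cases hω.2 fun h => h4 (h ▸ U.one_mem)).imp (fun h => ⟨h, hy⟩) fun h => ⟨h, hy⟩
    · rintro (hy | hy | hy)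
      · exact U.le_normalizer hy
      · exact hy.2
      · exact hy.2
  have h4 := congrArg Set.ncard h3
  rw [Set.ncard_union_eq (by
      rw [Set.disjoint_left]
      intro y hy hy'
      obtain ⟨ω, hω⟩ := S.mem_P_of_two (g := y) (n := 2) (by
        apply orderOf_dvd_iff_pow_eq_one.1
        rcases hy' with hx | hx <;> rw [Set.mem_ofPred_eq.mp hx.1] <;> norm_num)
      have := hU.eq_one hy hω
      rcases hy' with hx | hx <;> simpa [this] using hx.1),
    Set.ncard_union_eq (by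
      rw [Set.disjoint_left]
      intro y hy hy'
      have e1 : orderOf y = 2 := hy.1
      have e2 : orderOf y = 4 := hy'.1
      omega), h2, ← Nat.card_coe_set_eq, ← Nat.card_coe_set_eq, SetLike.coe_sort_coe, SetLike.coe_sort_coe,
    h1] at h4
  omega

variable (S)

include S in
theorem card_Sol_two {x : G} (h : orderOf x = 2) :
    (Sol x).ncard = Fintype.card F ^ 2 * (4 * Fintype.card F - 3) := by
  have := S.finite
  have h1 : x ≠ 1 := by rintro rfl; simp at h
  have h2 : x ^ 2 = 1 := h ▸ pow_orderOf_eq_one x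
  have h3 : x * x = 1 := by rw [← pow_two, h2]
  obtain ⟨ω, hω⟩ := S.mem_Zc_of_sq h2
  have e1 := double_count {x : G | orderOf x = 2} {c | S.Free c}
    fun x c => x ∈ Subgroup.normalizer (Subgroup.centralizer ({c} : Set G) : Set G)
  rw [finsum_mem_congr (s := {c | S.Free c}) rfl fun c hc => Free.ncard_two (c := c) hc, finsum_const _ _ (S.OF x).ncard (fun y hy => by
    obtain ⟨g, rfl⟩ := S.isConj_of_two h
    obtain ⟨k, rfl⟩ := S.isConj_of_two hy
    exact (S.ncard_OF_conj _ _).trans (S.ncard_OF_conj _ _).symm), S.ncard_two] at e1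
  have e2 := S.sum_free
  have e3 : (S.OO x).ncard + (Fintype.card F - 1) = (Fintype.card F ^ 2 + 1) * (Fintype.card F - 1) := by
    rw [← S.ncard_two, ← Set.ncard_image_of_injective (S.OO x) (mul_right_injective x), ← S.card_Zc ω,
      ← SetLike.coe_sort_coe, Nat.card_coe_set_eq, ← Set.ncard_sdiff_singleton_of_mem (S.Zc ω).one_mem,
      ← Set.ncard_union_eq]
    · congr 1
      ext y
      constructor
      · rintro (⟨c, hc, rfl⟩ | hy)
        · have hU := opart_cent hc.1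
          refine orderOf_eq_prime ?_ fun h5 => hc.1 ω ?_
          · calc (x * c) ^ 2 = x * c * x⁻¹ * (x * x) * c := by rw [pow_two]; group
              _ = 1 := by rw [hU.inverts hc.2 h1 h2 (Subgroup.mem_centralizer_singleton_iff.2 rfl), h3]; simp
          · rw [eq_inv_of_mul_eq_one_right h5]
            exact Subgroup.inv_mem _ (S.Zc_le_P _ hω)
        · exact orderOf_eq_prime hy.1.2 hy.2
      · intro hy
        have hy1 : y ≠ 1 := by rintro rfl; simp at hy
        have hy2 : y ^ 2 = 1 := by rw [← Set.mem_ofPred_eq.mp hy, pow_orderOf_eq_one]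
        obtain ⟨α, hα⟩ := S.mem_Zc_of_sq hy2
        by_cases h4 : ω = α
        · exact Or.inr ⟨h4 ▸ hα, hy1⟩
        have h5 := S.mul_not_mem_P h4 hω h1 hα hy1
        have hcc : x * y ∈ Subgroup.centralizer ({x * y} : Set G) := Subgroup.mem_centralizer_singleton_iff.2 rfl
        refine Or.inl ⟨x * y, ⟨h5, (opart_cent h5).part.ti hcc (fun h => h5 ω (h ▸ Subgroup.one_mem _)) ?_⟩,
          by simp [← mul_assoc, h3]⟩
        rw [conj_mul_inv h2 hy2]
        exact Subgroup.inv_mem _ hcc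
    · rw [Set.disjoint_left]
      rintro _ ⟨c, hc, rfl⟩ hy
      exact hc.1 ω (((S.P ω).mul_mem_cancel_left (S.Zc_le_P _ hω)).1 (S.Zc_le_P _ hy.1))
  rw [S.card_Sol_P (S.Zc_le_P _ hω) h1]
  rw [← e1, S.card_G] at e2
  have h8 := S.eight_le
  obtain ⟨q, hq⟩ : ∃ q, Fintype.card F = q + 1 := ⟨Fintype.card F - 1, by omega⟩
  rw [hq, Nat.add_sub_cancel] at e2 e3 ⊢
  have e4 : 2 * (S.OF x).ncard = (q + 1) ^ 3 :=
    Nat.eq_of_mul_eq_mul_left (show 0 < ((q + 1) ^ 2 + 1) * q by have : 0 < q := by omega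
                                                                 positivity) (by linarith)
  rw [show 4 * (q + 1) - 3 = 4 * q + 1 by omega]
  nlinarith

include S in
theorem card_Sol_four {x : G} (h : orderOf x = 4) :
    (Sol x).ncard = Fintype.card F ^ 2 * (Fintype.card F + 3) := by
  have := S.finite
  have h1 : x ≠ 1 := by rintro rfl; simp at h
  obtain ⟨ω, hω⟩ := S.mem_P_of_two (g := x) (n := 2) (orderOf_dvd_iff_pow_eq_one.1 h.dvd)
  have e1 := double_count {x : G | orderOf x = 4} {c | S.Free c}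
    fun x c => x ∈ Subgroup.normalizer (Subgroup.centralizer ({c} : Set G) : Set G)
  have key : ∀ y, orderOf y = 4 → (S.OF y).ncard = (S.OF (S.u 1 0)).ncard := by
    intro y hy
    obtain ⟨g, rfl | rfl⟩ := S.isConj_of_four hy
    · exact S.ncard_OF_conj _ _
    · rw [ncard_OF_conj, OF_inv]
  rw [finsum_mem_congr (s := {c | S.Free c}) rfl fun c hc => Free.ncard_four (c := c) hc, finsum_const _ _ (S.OF x).ncard (fun y hy => by
    exact (key y hy).trans (key x h).symm), S.ncard_four, ← mul_finsum_mem, sum_free, S.card_G] at e1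
  have e3 : S.OO x = S.OF x := by
    refine Set.Subset.antisymm (fun c hc => ⟨?_, hc.2⟩) (S.OF_subset x)
    rcases S.cases c with ⟨α, h4⟩ | ⟨α, β, h4, h5⟩ | h4
    · exact absurd h4 (hc.1 α)
    · exfalso
      have h6 := hc.2
      rw [S.centralizer_T h4 h5 fun h' => hc.1 α (h' ▸ Subgroup.one_mem _)] at h6
      rcases (S.mem_normalizer_T h4 le_rfl (S.T_ne_bot h4)).1 h6 with h7 | ⟨h7, h8⟩
      · exact h1 (S.T_sq h4 h7 (n := 2) hω.2)
      · have := orderOf_dvd_of_pow_eq_one (S.swap_sq h4 h7 h8)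
        rw [h] at this
        omega
    · exact h4
  rw [S.card_Sol_P hω h1, e3]
  have h8 := S.eight_le
  obtain ⟨q, hq⟩ : ∃ q, Fintype.card F = q + 1 := ⟨Fintype.card F - 1, by omega⟩
  rw [hq, Nat.add_sub_cancel] at e1 ⊢
  have e4 : (S.OF x).ncard = (q + 1) ^ 2 :=
    Nat.eq_of_mul_eq_mul_left (show 0 < ((q + 1) ^ 2 + 1) * ((q + 1) * q) by have : 0 < q := by omega
                                                                             positivity) (by linarith)
  rw [e4]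
  ring

theorem mem_T_of_orderOf {x : G} (h1 : x ≠ 1) (h : orderOf x ∣ Fintype.card F - 1) :
    ∃ α β, α ≠ β ∧ x ∈ S.T α β := by
  rcases S.cases x with ⟨ω, h2⟩ | h2 | h2
  · exfalso
    have h3 : 2 ∣ Fintype.card F - 1 := by
      refine dvd_trans ?_ h
      rcases order_cases h2.2 h1 with h3 | h3 <;> rw [h3] <;> norm_num
    have h8 := S.eight_le
    rw [S.hF, pow_succ] at h3 h8
    omega
  · exact h2
  · exact absurd (orderOf_eq_one_iff.1 (Nat.eq_one_of_dvd_coprimes S.coprime_card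
      (Dvd.dvd.mul_left h _) h2.orderOf_dvd)) h1

end SzS

end H5.Sz
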