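import Cfsg.Agent.H5.TB6

/-! The automorphism group of the Sylow `2`-subgroup of `SU₃(2ⁿ)`. -/

set_option autoImplicit false

namespace H5
namespace U3

open Cfsg Matrix H4 H4.Au Gen

variable {F : Type*} [Field F] {φ : F ≃+* F} [hφ : Fact (∀ a, φ (φ a) = a)] [CharP F 2] [Finite F] {e : F} (he : e + φ e = 1)

/-- automorphisms trivial modulo the centre -/
def NN (φ : F ≃+* F) [Fact (∀ a, φ (φ a) = a)] : Subgroup (MulAut (UU φ)) where
  carrier := {α | ∀ x, (α x).a = x.a}
  mul_mem' a b x := (a _).trans (b x)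
  one_mem' _ := rfl
  inv_mem' a x := (a _).symm.trans (by simp)

/-- the fixed field -/
def KK (φ : F ≃+* F) : AddSubgroup F := φ.toAddMonoidHom.eqLocus (.id F)

omit hφ [CharP F 2] in
theorem cm (γ : F ≃+* F) (a : F) : φ (γ a) = γ (φ a) :=
  haveI := isCyclic_ringAut (F := F)
  congrArg (· a) (IsCyclic.commGroup.mul_comm φ γ)

/-- field automorphisms -/
def fld (γ : F ≃+* F) : MulAut (UU φ) where
  toFun x := ⟨γ x.a, γ x.b, by rw [cm (φ := φ), cm (φ := φ), ← map_add, x.h, map_mul]⟩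
  invFun x := ⟨γ.symm x.a, γ.symm x.b, by rw [cm (φ := φ), cm (φ := φ), ← map_add, x.h, map_mul]⟩
  left_inv x := by ext <;> simp
  right_inv x := by ext <;> simp
  map_mul' x y := by ext <;> simp [cm]

/-- central automorphisms -/
def tr (f : F →+ KK φ) : MulAut (UU φ) :=
  let g : UU φ → UU φ := fun x => ⟨x.a, x.b + f x.a, by
    rw [map_add, show φ (f x.a) = f x.a from (f x.a).2, ← x.h]
    linear_combination (f x.a : F) * (CharTwo.two_eq_zero : (2 : F) = 0)⟩
  have : ∀ x, g (g x) = x := fun x => by ext <;> simp [g, add_assoc, CharTwo.add_self_eq_zero]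
  { toFun := g, invFun := g, left_inv := this, right_inv := this
    map_mul' x y := by ext <;> simp [g]; ring }

@[simp] theorem tr_a (f : F →+ KK φ) (x : UU φ) : (tr f x).a = x.a := rfl
@[simp] theorem tr_b (f : F →+ KK φ) (x : UU φ) : (tr f x).b = x.b + f x.a := rfl

include he

theorem exists_tr {ν : MulAut (UU φ)} (h : ν ∈ NN φ) : ∃ f, tr f = ν := by
  have t2 := (CharTwo.two_eq_zero : (2 : F) = 0)
  have h : ∀ x, (ν x).a = x.a := h
  have w : ∀ x y : UU φ, x.a = y.a → (ν x).b + x.b = (ν y).b + y.b := fun x y g => by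
    obtain ⟨z, rfl⟩ : ∃ z, y = x * z := ⟨x⁻¹ * y, by simp⟩
    have : z.a = 0 := by simpa using g
    rw [map_mul, fix_center he ν (fun x => (h _).trans (h x)) this]
    simp only [mul_b, this, map_zero, mul_zero]
    linear_combination -z.b * t2
  refine ⟨.mk' (fun a => ⟨(ν (sec he a)).b + (sec he a).b, ?_⟩) fun a b => Subtype.ext ?_, MulEquiv.ext fun x => UU.ext (h x).symm ?_⟩
  · have := (ν (sec he a)).h
    rw [h] at this
    show φ _ = _ + _
    rw [map_add]
    linear_combination this + (sec he a).h - ((ν (sec he a)).b + (sec he a).b - (sec he a).a * φ (sec he a).a) * t2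
  · show _ + _ = _ + _ + (_ + _)
    rw [w (sec he (a + b)) (sec he a * sec he b) rfl, map_mul, mul_b, mul_b, h, h]
    linear_combination (sec he a).a * φ (sec he b).a * t2
  · show x.b + (_ + _) = _
    rw [w (sec he x.a) x rfl]
    linear_combination x.b * t2

theorem card_NN : Nat.card (NN φ) = Nat.card (F →+ KK φ) :=
  (Nat.card_eq_of_bijective (fun f => (⟨tr f, fun _ => rfl⟩ : NN φ)) ⟨fun f g h => AddMonoidHom.ext fun a => Subtype.ext (by
    simpa [sec] using congrArg (fun ν : NN φ => (ν.1 (sec he a)).b) h), fun ν =>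
      (exists_tr he ν.2).imp fun _ h => Subtype.ext h⟩).symm

theorem NN_elem : IsElementaryAbelian 2 (NN φ) := by
  refine ⟨⟨⟨fun μ ν => Subtype.ext ?_⟩⟩, fun ν h => ?_⟩
  · obtain ⟨f, hf⟩ := exists_tr he μ.2
    obtain ⟨g, hg⟩ := exists_tr he ν.2
    show μ.1 * ν.1 = ν.1 * μ.1
    rw [← hf, ← hg]
    ext <;> simp [add_right_comm]
  · obtain ⟨f, rfl⟩ := exists_tr he h
    ext <;> simp [sq, add_assoc, CharTwo.add_self_eq_zero]

theorem NN_normal : (NN φ).Normal := ⟨fun ν h α x => by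
  obtain ⟨c, -, γ, k⟩ := aut_struct he α
  rw [MulAut.mul_apply, MulAut.mul_apply, k, h, ← k]; simp⟩

theorem card_aut : Nat.card (MulAut (UU φ)) = Nat.card (NN φ) * (Nat.card (F ≃+* F) * Nat.card Fˣ) := by
  rw [← Nat.card_prod, ← Nat.card_prod]
  refine (Nat.card_eq_of_bijective (fun p => dg p.2.2 * fld p.2.1 * p.1.1) ⟨?_, fun α => ?_⟩).symm
  · rintro ⟨μ, γ, c⟩ ⟨ν, δ, d⟩ h
    have k : ∀ a, c * γ a = d * δ a := fun a => by
      have := congrArg (fun α : MulAut (UU φ) => (α (sec he a)).a) h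
      simpa [dg, fld, μ.2 _, ν.2 _, sec] using this
    obtain rfl : c = d := Units.ext (by simpa using k 1)
    obtain rfl : γ = δ := RingEquiv.ext fun a => by simpa using k a
    obtain rfl : μ = ν := Subtype.ext (mul_left_cancel h)
    rfl
  · obtain ⟨c, c0, γ, k⟩ := aut_struct he α
    exact ⟨(⟨(dg (.mk0 c c0) * fld γ)⁻¹ * α, fun x => by simp [dg, fld, k, c0]⟩, γ, .mk0 c c0), mul_inv_cancel_left _ _⟩

theorem core_le (M : Subgroup (MulAut (UU φ))) (hM : M.Normal) (h : IsPGroup 2 M) : M ≤ NN φ := fun α a => by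
  have s : ∀ β ∈ M, ∀ u : F, (∀ x, (β x).a = u * x.a) → u = 1 := fun β b u k => by
    have p : ∀ m : ℕ, ((β ^ m) (sec he 1)).a = u ^ m := fun m => by
      induction m with
      | zero => simp [sec]
      | succ m ih => rw [pow_succ', MulAut.mul_apply, k, ih, pow_succ']
    obtain ⟨m, hm⟩ := h ⟨β, b⟩
    have := p (2 ^ m)
    rw [show β ^ 2 ^ m = 1 from congrArg Subtype.val hm] at this
    simpa using (ExpChar.pow_prime_pow_mul_eq_one_iff 2 m 1 u).1 (by rw [mul_one]; exact this.symm)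
  obtain ⟨c, c0, γ, k⟩ := aut_struct he α
  have g : ∀ t : Fˣ, γ t * (t : F)⁻¹ = 1 := fun t => s _ (mul_mem a (hM.conj_mem _ (inv_mem a) (dg t))) _ fun x => by
    obtain ⟨y, rfl⟩ := (dg t * α).surjective x
    rw [← MulAut.mul_apply, show α * (dg t * α⁻¹ * (dg t)⁻¹) * (dg t * α) = α * dg t by group]
    simp [dg, k]
    field_simp
  obtain rfl : γ = 1 := RingEquiv.ext fun a => by
    by_cases h : a = 0
    exacts [by simp [h], (mul_inv_eq_one₀ h).1 (g (.mk0 a h))]
  obtain rfl := s α a c k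
  exact fun x => by simpa using k x

omit he hφ in
theorem card_hom {n : ℕ} (hF : Nat.card F = 2 ^ n) : Nat.card (F →+ KK φ) = Nat.card (KK φ) ^ n := by
  letI := ZMod.algebra F 2
  letI : Module (ZMod 2) (KK φ) := AddCommGroup.zmodModule fun x => Subtype.ext (by simp [two_nsmul, CharTwo.add_self_eq_zero])
  haveI := Fintype.ofFinite F
  have : Module.finrank (ZMod 2) F = n := Nat.pow_right_injective le_rfl (by
    simpa [← hF] using (Module.card_eq_pow_finrank (K := ZMod 2) (V := F)).symm)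
  rw [Nat.card_congr (AddMonoidHom.toZModLinearMapEquiv 2).toEquiv, ← Nat.card_congr ((Module.finBasis (ZMod 2) F).constr ℕ).toEquiv,
    Nat.card_fun, this]
  simp

end U3
end H5
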