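import Cfsg.Agent.H5.GA2

/-! Additive maps of a finite field of characteristic two compatible with `x ↦ θ x * x`. -/

set_option autoImplicit false

namespace H5
namespace SzA

open Cfsg Gen Finset

variable {F : Type*} [Field F] [Finite F] [Fintype (F ≃+* F)]

omit [Finite F] in
theorem ind1 (c : (F ≃+* F) → F) (h : ∀ x, ∑ g, c g * g x = 0) (g : F ≃+* F) : c g = 0 :=
  Fintype.linearIndependent_iff.1 ((linearIndependent_monoidHom F F).comp (fun g : F ≃+* F => (g : F →* F))
    fun _ _ h => RingEquiv.ext fun x => DFunLike.congr_fun h x) c (funext fun x => by simpa using h x) g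

omit [Finite F] in
theorem ind2 (c : (F ≃+* F) → (F ≃+* F) → F) (h : ∀ x y, ∑ g, ∑ k, c g k * g x * k y = 0) (g k : F ≃+* F) : c g k = 0 :=
  ind1 _ (fun y => ind1 (fun g => ∑ k, c g k * k y) (fun x => by simpa [sum_mul, mul_right_comm] using h x y) g) k

variable [CharP F 2]

omit [Fintype (F ≃+* F)] in
theorem card_end {n : ℕ} (hF : Nat.card F = 2 ^ n) : Nat.card (F →+ F) = Nat.card F ^ n := by
  letI := ZMod.algebra F 2
  haveI := Fintype.ofFinite F
  have : Module.finrank (ZMod 2) F = n := Nat.pow_right_injective le_rfl (by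
    simpa [← hF] using (Module.card_eq_pow_finrank (K := ZMod 2) (V := F)).symm)
  rw [Nat.card_congr (AddMonoidHom.toZModLinearMapEquiv 2).toEquiv, ← Nat.card_congr ((Module.finBasis (ZMod 2) F).constr ℕ).toEquiv,
    Nat.card_fun, this]
  simp

theorem lin (σ : F →+ F) : ∃ a : (F ≃+* F) → F, ∀ x, σ x = ∑ g, a g * g x := by
  haveI := Fintype.ofFinite F
  obtain ⟨n, -, hn⟩ := FiniteField.card F 2
  rw [← Nat.card_eq_fintype_card] at hn
  haveI : Finite (F →+ F) := .of_injective _ DFunLike.coe_injective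
  let L (a : (F ≃+* F) → F) : F →+ F := .mk' (fun x => ∑ g, a g * g x) fun x y => by simp [mul_add, sum_add_distrib]
  obtain ⟨a, rfl⟩ := ((Nat.bijective_iff_injective_and_card L).2 ⟨fun a b h => funext fun g => sub_eq_zero.1
    (ind1 (fun g => a g - b g) (fun x => by simpa [L, sub_mul, sub_eq_zero] using DFunLike.congr_fun h x) g), by
      rw [card_end hn, Nat.card_fun, card_ringAut hn]⟩).2 σ
  exact ⟨a, fun _ => rfl⟩

theorem quad (c : (F ≃+* F) → (F ≃+* F) → F) (h : ∀ x, ∑ g, ∑ k, c g k * g x * k x = 0) :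
    (∀ g k, c g k = c k g) ∧ ∀ g, c g g = 0 := by
  classical
  have s : ∀ g k, c g k = c k g := fun g k => CharTwo.add_eq_zero.1 (ind2 (fun g k => c g k + c k g) (fun x y => by
    have := h (x + y)
    simp only [map_add, mul_add, add_mul, sum_add_distrib, h, zero_add, add_zero] at this ⊢
    rw [← this, add_comm, sum_comm]
    simp only [mul_right_comm]) g k)
  refine ⟨s, ind1 _ fun y => ?_⟩
  obtain ⟨x, rfl⟩ := (Finite.injective_iff_surjective.1 (frobenius_inj F 2)) y
  have := h x
  rw [← sum_product', ← diag_union_offDiag, sum_union (disjoint_diag_offDiag _), sum_diag,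
    sum_involution (fun p _ => p.swap) (fun p _ => by rw [s]; simp [mul_right_comm, CharTwo.add_self_eq_zero])
      (fun p a _ e => (mem_offDiag.1 a).2.2 (congrArg Prod.snd e)) (fun p a => by simpa [eq_comm] using a) fun _ _ => rfl] at this
  simpa [frobenius_def, sq, mul_assoc] using this

omit [Fintype (F ≃+* F)] in
theorem key {θ : F ≃+* F} (h4 : θ ^ 4 ≠ 1) (σ τ : F →+ F) (h : ∀ x, θ (σ x) * σ x = τ (θ x * x)) (h0 : σ 1 ≠ 0) :
    ∃ c : F, c ≠ 0 ∧ ∃ γ : F ≃+* F, ∀ x, σ x = c * γ x := by
  classical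
  haveI : Finite (F ≃+* F) := .of_injective _ DFunLike.coe_injective
  haveI : Fintype (F ≃+* F) := .ofFinite _
  haveI := isCyclic_ringAut (F := F)
  have cm : ∀ g k : F ≃+* F, g * k = k * g := IsCyclic.commGroup.mul_comm
  obtain ⟨a, ha⟩ := lin σ
  obtain ⟨b, hb⟩ := lin τ
  obtain ⟨s, d⟩ := quad (fun g k => θ (a (θ⁻¹ * g)) * a k - if g = k * θ then b k else 0) fun x => by
    simp only [sub_mul, sum_sub_distrib]
    rw [sub_eq_zero, ← Equiv.sum_comp (Equiv.mulLeft θ), sum_comm (f := fun g k => (if g = k * θ then b k else 0) * g x * k x)]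
    have := h x
    rw [ha, hb, map_sum, sum_mul_sum] at this
    simpa [mul_assoc, mul_left_comm, RingAut.mul_apply] using this
  have n1 : ∀ g, g ≠ g * θ := fun g e => h4 (by rw [left_eq_mul.1 e, one_pow])
  have k1 : ∀ g k, a g ≠ 0 → a k ≠ 0 → k ≠ g → g = θ * k * θ := fun g k p q r => by_contra fun e => by
    have d := d g
    have s := s g (θ * k)
    simp only [if_neg (n1 g), sub_zero, mul_eq_zero, p, or_false] at d
    simp only [if_neg e, if_neg fun e : θ * k = g * θ => r (mul_left_cancel (e.trans (cm _ _))), d] at s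
    simp [p, q] at s
  obtain ⟨g, p⟩ : ∃ g, a g ≠ 0 := by_contra fun e => h0 (by simp [ha, not_not.1 (not_exists.1 e _)])
  refine ⟨a g, p, g, fun x => (ha x).trans (sum_eq_single _ (fun k _ r => ?_) (by simp))⟩
  by_contra q
  have q := left_ne_zero_of_mul q
  have := k1 g k p q r
  rw [k1 k g q p r.symm, cm θ g, cm θ] at this
  exact h4 (left_eq_mul.1 (this.trans (by simp [pow_succ, mul_assoc])))

end SzA
end H5
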