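import Cfsg.Agent.H5.TB8
import Cfsg.Agent.H5.SZ4
import Cfsg.Prelude.Def_Transfer

/-! The automorphism group of the Sylow `2`-subgroup of a Suzuki group. -/

set_option autoImplicit false

namespace H5
namespace SzA

open Cfsg Gen

variable {F : Type*} [Field F] [CharP F 2] {θ : F ≃+* F}

/-- pairs -/
@[ext] structure VV (θ : F ≃+* F) where
  a : F
  b : F

instance : Mul (VV θ) := ⟨fun x y => ⟨x.a + y.a, x.b + y.b + θ x.a * y.a⟩⟩
instance : One (VV θ) := ⟨⟨0, 0⟩⟩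
instance : Inv (VV θ) := ⟨fun x => ⟨x.a, x.b + θ x.a * x.a⟩⟩

omit [CharP F 2] in
@[simp] theorem mul_a (x y : VV θ) : (x * y).a = x.a + y.a := rfl
omit [CharP F 2] in
@[simp] theorem mul_b (x y : VV θ) : (x * y).b = x.b + y.b + θ x.a * y.a := rfl
omit [CharP F 2] in
@[simp] theorem one_a : (1 : VV θ).a = 0 := rfl
omit [CharP F 2] in
@[simp] theorem one_b : (1 : VV θ).b = 0 := rfl
omit [CharP F 2] in
@[simp] theorem inv_a (x : VV θ) : (x⁻¹).a = x.a := rfl
omit [CharP F 2] in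
@[simp] theorem inv_b (x : VV θ) : (x⁻¹).b = x.b + θ x.a * x.a := rfl

instance : Group (VV θ) := .ofLeftAxioms (fun x y z => by ext <;> simp <;> ring) (fun x => by ext <;> simp)
  fun x => by
    ext <;> simp [CharTwo.add_self_eq_zero]
    linear_combination (x.b + θ x.a * x.a) * (CharTwo.two_eq_zero : (2 : F) = 0)

theorem sq_eq_one {x : VV θ} : x * x = 1 ↔ x.a = 0 := by
  simp [VV.ext_iff, CharTwo.add_self_eq_zero]

theorem sq_b (x : VV θ) : (x * x).b = θ x.a * x.a := by simp [CharTwo.add_self_eq_zero]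

/-- diagonal automorphisms -/
def dg : Fˣ →* MulAut (VV θ) where
  toFun t :=
    { toFun x := ⟨t * x.a, θ t * t * x.b⟩
      invFun x := ⟨t⁻¹ * x.a, θ ↑t⁻¹ * t⁻¹ * x.b⟩
      left_inv x := by ext <;> simp; field_simp
      right_inv x := by ext <;> simp; field_simp
      map_mul' x y := by ext <;> simp <;> ring }
  map_one' := by ext <;> simp
  map_mul' s t := by ext <;> simp <;> ring

/-- automorphisms trivial modulo the centre -/
def NN (θ : F ≃+* F) : Subgroup (MulAut (VV θ)) where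
  carrier := {α | ∀ x, (α x).a = x.a}
  mul_mem' a b x := (a _).trans (b x)
  one_mem' _ := rfl
  inv_mem' a x := (a _).symm.trans (by simp)

/-- central automorphisms -/
def tr (f : F →+ F) : MulAut (VV θ) :=
  let g : VV θ → VV θ := fun x => ⟨x.a, x.b + f x.a⟩
  have : ∀ x, g (g x) = x := fun x => by ext <;> simp [g, add_assoc, CharTwo.add_self_eq_zero]
  { toFun := g, invFun := g, left_inv := this, right_inv := this
    map_mul' x y := by ext <;> simp [g]; ring }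

@[simp] theorem tr_a (f : F →+ F) (x : VV θ) : (tr f x).a = x.a := rfl
@[simp] theorem tr_b (f : F →+ F) (x : VV θ) : (tr f x).b = x.b + f x.a := rfl

theorem exists_tr (hs : ∀ b, ∃ t, θ t * t = b) {ν : MulAut (VV θ)} (h : ν ∈ NN θ) : ∃ f, tr f = ν := by
  have t2 := (CharTwo.two_eq_zero : (2 : F) = 0)
  have h : ∀ x, (ν x).a = x.a := h
  have z : ∀ b, ν ⟨0, b⟩ = ⟨0, b⟩ := fun b => by
    obtain ⟨t, rfl⟩ := hs b
    refine VV.ext (h _) ?_
    rw [show (⟨0, θ t * t⟩ : VV θ) = ⟨t, 0⟩ * ⟨t, 0⟩ by ext <;> simp [CharTwo.add_self_eq_zero], map_mul, sq_b, sq_b, h]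
  have w : ∀ x : VV θ, (ν x).b = x.b + (ν ⟨x.a, 0⟩).b := fun x => by
    rw [show x = ⟨0, x.b⟩ * ⟨x.a, 0⟩ by ext <;> simp, map_mul, z]
    simp
  refine ⟨.mk' (fun a => (ν ⟨a, 0⟩).b) fun a b => ?_, MulEquiv.ext fun x => VV.ext (h x).symm (w x).symm⟩
  have := w (⟨a, 0⟩ * ⟨b, 0⟩)
  rw [map_mul] at this
  simp only [mul_a, mul_b, h] at this
  linear_combination -this

theorem card_NN (hs : ∀ b, ∃ t, θ t * t = b) : Nat.card (NN θ) = Nat.card (F →+ F) :=
  (Nat.card_eq_of_bijective (fun f => (⟨tr f, fun _ => rfl⟩ : NN θ)) ⟨fun f g h => AddMonoidHom.ext fun a => by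
    simpa using congrArg (fun ν : NN θ => (ν.1 ⟨a, 0⟩).b) h, fun ν => (exists_tr hs ν.2).imp fun _ h => Subtype.ext h⟩).symm

theorem NN_elem (hs : ∀ b, ∃ t, θ t * t = b) : IsElementaryAbelian 2 (NN θ) := by
  refine ⟨⟨⟨fun μ ν => Subtype.ext ?_⟩⟩, fun ν h => ?_⟩
  · obtain ⟨f, hf⟩ := exists_tr hs μ.2
    obtain ⟨g, hg⟩ := exists_tr hs ν.2
    show μ.1 * ν.1 = ν.1 * μ.1
    rw [← hf, ← hg]
    ext <;> simp [add_right_comm]
  · obtain ⟨f, rfl⟩ := exists_tr hs h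
    ext <;> simp [sq, add_assoc, CharTwo.add_self_eq_zero]

variable [Finite F]

omit [CharP F 2] in
theorem cm (γ : F ≃+* F) (a : F) : θ (γ a) = γ (θ a) :=
  haveI := isCyclic_ringAut (F := F)
  congrArg (· a) (IsCyclic.commGroup.mul_comm θ γ)

/-- field automorphisms -/
def fld (γ : F ≃+* F) : MulAut (VV θ) where
  toFun x := ⟨γ x.a, γ x.b⟩
  invFun x := ⟨γ.symm x.a, γ.symm x.b⟩
  left_inv x := by ext <;> simp
  right_inv x := by ext <;> simp
  map_mul' x y := by ext <;> simp [cm]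

variable (h4 : θ ^ 4 ≠ 1)
include h4

theorem aut_struct (α : MulAut (VV θ)) : ∃ c : F, c ≠ 0 ∧ ∃ γ : F ≃+* F, ∀ x, (α x).a = c * γ x.a := by
  have z : ∀ x : VV θ, (α x).a = 0 ↔ x.a = 0 := fun x => by rw [← sq_eq_one, ← map_mul, α.map_eq_one_iff, sq_eq_one]
  have w : ∀ x y : VV θ, x.a = y.a → (α x).a = (α y).a := fun x y h => by
    simpa [CharTwo.add_eq_zero] using (z (x * y)).2 (by simp [h, CharTwo.add_self_eq_zero])
  obtain ⟨c, c0, γ, k⟩ := key h4 (.mk' (fun a => (α ⟨a, 0⟩).a) fun a b => by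
      rw [w ⟨a + b, 0⟩ (⟨a, 0⟩ * ⟨b, 0⟩) rfl, map_mul, mul_a])
    (.mk' (fun b => (α ⟨0, b⟩).b) fun a b => by
      rw [show (⟨0, a + b⟩ : VV θ) = ⟨0, a⟩ * ⟨0, b⟩ by ext <;> simp, map_mul, mul_b, (z ⟨0, b⟩).2 rfl, mul_zero, add_zero])
    (fun a => by
      show _ = (α _).b
      rw [show (⟨0, θ a * a⟩ : VV θ) = ⟨a, 0⟩ * ⟨a, 0⟩ by ext <;> simp [CharTwo.add_self_eq_zero], map_mul, sq_b]; rfl)
    fun h => one_ne_zero ((z _).1 h)
  exact ⟨c, c0, γ, fun x => (w x ⟨x.a, 0⟩ rfl).trans (k _)⟩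

theorem NN_normal : (NN θ).Normal := ⟨fun ν h α x => by
  obtain ⟨c, -, γ, k⟩ := aut_struct h4 α
  rw [MulAut.mul_apply, MulAut.mul_apply, k, h, ← k]; simp⟩

theorem card_aut : Nat.card (MulAut (VV θ)) = Nat.card (NN θ) * (Nat.card (F ≃+* F) * Nat.card Fˣ) := by
  rw [← Nat.card_prod, ← Nat.card_prod]
  refine (Nat.card_eq_of_bijective (fun p => dg p.2.2 * fld p.2.1 * p.1.1) ⟨?_, fun α => ?_⟩).symm
  · rintro ⟨μ, γ, c⟩ ⟨ν, δ, d⟩ h
    have k : ∀ a, c * γ a = d * δ a := fun a => by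
      have := congrArg (fun α : MulAut (VV θ) => (α ⟨a, 0⟩).a) h
      simpa [dg, fld, μ.2 _, ν.2 _] using this
    obtain rfl : c = d := Units.ext (by simpa using k 1)
    obtain rfl : γ = δ := RingEquiv.ext fun a => by simpa using k a
    obtain rfl : μ = ν := Subtype.ext (mul_left_cancel h)
    rfl
  · obtain ⟨c, c0, γ, k⟩ := aut_struct h4 α
    exact ⟨(⟨(dg (.mk0 c c0) * fld γ)⁻¹ * α, fun x => by simp [dg, fld, k, c0]⟩, γ, .mk0 c c0), mul_inv_cancel_left _ _⟩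

theorem core_le (M : Subgroup (MulAut (VV θ))) (hM : M.Normal) (h : IsPGroup 2 M) : M ≤ NN θ := fun α a => by
  have s : ∀ β ∈ M, ∀ u : F, (∀ x, (β x).a = u * x.a) → u = 1 := fun β b u k => by
    have p : ∀ m : ℕ, ((β ^ m) ⟨1, 0⟩).a = u ^ m := fun m => by
      induction m with
      | zero => simp
      | succ m ih => rw [pow_succ', MulAut.mul_apply, k, ih, pow_succ']
    obtain ⟨m, hm⟩ := h ⟨β, b⟩
    have := p (2 ^ m)
    rw [show β ^ 2 ^ m = 1 from congrArg Subtype.val hm] at this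
    simpa using (ExpChar.pow_prime_pow_mul_eq_one_iff 2 m 1 u).1 (by rw [mul_one]; exact this.symm)
  obtain ⟨c, c0, γ, k⟩ := aut_struct h4 α
  have g : ∀ t : Fˣ, γ t * (t : F)⁻¹ = 1 := fun t => s _ (mul_mem a (hM.conj_mem _ (inv_mem a) (dg t))) _ fun x => by
    obtain ⟨y, rfl⟩ := (dg t * α).surjective x
    rw [← MulAut.mul_apply, show α * (dg t * α⁻¹ * (dg t)⁻¹) * (dg t * α) = α * dg t by group]
    simp [dg, k]
    field_simp
  obtain rfl : γ = 1 := RingEquiv.ext fun a => by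
    by_cases h : a = 0
    exacts [by simp [h], (mul_inv_eq_one₀ h).1 (g (.mk0 a h))]
  obtain rfl := s α a c k
  exact fun x => by simpa using k x

end SzA
end H5
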