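import Cfsg.Agent.H5.TB3

/-! Isotropic fixed vectors of elements of `SU₃`. -/

set_option autoImplicit false

namespace H5
namespace Iso3

open Matrix

variable {F : Type*} [Field F] {φ : F ≃+* F} {A : Matrix (Fin 3) (Fin 3) F} {u w : Fin 3 → F}

theorem par (hu : u ≠ 0) (h : u ⨯₃ w = 0) : ∃ c : F, w = c • u := by
  obtain ⟨i, hi⟩ := Function.ne_iff.1 hu
  have h0 := congrFun h 0
  have h1 := congrFun h 1
  have h2 := congrFun h 2
  refine ⟨w i / u i, funext fun j => ?_⟩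
  fin_cases i <;> fin_cases j <;> simp [cross_apply] at hi h0 h1 h2 ⊢ <;> field_simp <;> grind

theorem cross_par (hu : u ≠ 0) (h : u ⬝ᵥ φ ∘ u = 0) (h' : w ⬝ᵥ φ ∘ u = 0) : ∃ c : F, u ⨯₃ w = c • φ ∘ u :=
  par (fun e => hu (funext fun i => by simpa using congrFun e i)) (by
    rw [cross_cross_eq_smul_sub_smul', dotProduct_comm _ w, h, h']; simp)

variable (d : A.det = 1) (hA : ∀ u v, (A *ᵥ u) ⬝ᵥ φ ∘ (A *ᵥ v) = u ⬝ᵥ φ ∘ v)
include d hA

theorem step (hu : u ≠ 0) (h : u ⬝ᵥ φ ∘ u = 0) (f : A *ᵥ u = u) (h' : w ⬝ᵥ φ ∘ u = 0) : ∃ c : F, (A - 1) *ᵥ w = c • u := by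
  obtain ⟨c, hc⟩ := cross_par hu h h'
  have a : Aᵀ * A.map φ = 1 := by
    ext i j
    simpa [mul_apply, dotProduct, one_apply, Pi.single_apply, apply_ite φ, eq_comm] using hA (Pi.single i 1) (Pi.single j 1)
  have b : Aᵀ *ᵥ ((A *ᵥ u) ⨯₃ (A *ᵥ w)) = A.det • u ⨯₃ w := by
    ext i; fin_cases i <;> simp [cross_apply, mulVec, dotProduct, Fin.sum_univ_three, det_fin_three] <;> ring
  have e : A.map φ *ᵥ φ ∘ u = φ ∘ u := by
    ext i; simpa [mulVec, dotProduct] using congrArg φ (congrFun f i)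
  have := congrArg (A.map φ *ᵥ ·) b
  simp only [mulVec_mulVec, mul_eq_one_comm.1 a, one_mulVec, d, one_smul, f, hc, mulVec_smul, e] at this
  exact par hu (by rw [sub_mulVec, one_mulVec, map_sub, this, hc, sub_self])

omit d in
theorem perp (f : A *ᵥ u = u) (w : Fin 3 → F) : ((A - 1) *ᵥ w) ⬝ᵥ φ ∘ u = 0 := by
  rw [sub_mulVec, one_mulVec, sub_dotProduct, ← hA w, f, sub_self]

theorem cube (hu : u ≠ 0) (h : u ⬝ᵥ φ ∘ u = 0) (f : A *ᵥ u = u) : (A - 1) ^ 3 = 0 := by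
  refine ext_of_mulVec_single fun i => ?_
  obtain ⟨c, hc⟩ := step d hA hu h f (perp hA f (Pi.single i 1))
  rw [pow_three, ← mulVec_mulVec, ← mulVec_mulVec, hc, mulVec_smul, sub_mulVec, f, zero_mulVec]
  simp

theorem uniq (hφ : ∀ a, φ (φ a) = a) (n : A ≠ 1) (hu : u ≠ 0) (h : u ⬝ᵥ φ ∘ u = 0) (f : A *ᵥ u = u) (hw : w ≠ 0)
    (h' : w ⬝ᵥ φ ∘ w = 0) (f' : A *ᵥ w = w) : ∃ c : F, w = c • u := by
  have s : φ (w ⬝ᵥ φ ∘ u) = u ⬝ᵥ φ ∘ w := by simp [dotProduct, hφ, mul_comm]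
  by_cases e : w ⬝ᵥ φ ∘ u = 0
  · obtain ⟨c, hc⟩ := cross_par hu h e
    obtain ⟨c', hc'⟩ := cross_par hw h' (by rw [← s, e, map_zero])
    by_cases c0 : c' = 0
    · exact par hu (by rw [← cross_anticomm, hc', c0]; simp)
    rw [← cross_anticomm, hc] at hc'
    refine ⟨φ (-c / c'), funext fun i => φ.injective ?_⟩
    have := congrFun hc' i
    simp only [Pi.smul_apply, smul_eq_mul, map_mul, hφ, Pi.neg_apply, Function.comp] at this ⊢
    field_simp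
    linear_combination -this
  have e' : u ⬝ᵥ φ ∘ w ≠ 0 := by rw [← s]; simpa using e
  obtain ⟨i, hi⟩ : ∃ i, (A - 1) *ᵥ Pi.single i 1 ≠ 0 := by_contra fun a => n (sub_eq_zero.1
    (ext_of_mulVec_single fun i => (not_not.1 (not_exists.1 a i)).trans (zero_mulVec _).symm))
  generalize (Pi.single i 1 : Fin 3 → F) = v at hi
  obtain ⟨c, hc⟩ := step d hA hu h f (w := v - (v ⬝ᵥ φ ∘ u / w ⬝ᵥ φ ∘ u) • w) (by simp [e])
  obtain ⟨c', hc'⟩ := step d hA hw h' f' (w := v - (v ⬝ᵥ φ ∘ w / u ⬝ᵥ φ ∘ w) • u) (by simp [e'])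
  rw [mulVec_sub, mulVec_smul, sub_mulVec A 1 w, f', one_mulVec, sub_self, smul_zero, sub_zero] at hc
  rw [mulVec_sub, mulVec_smul, sub_mulVec A 1 u, f, one_mulVec, sub_self, smul_zero, sub_zero] at hc'
  have c0 : c' ≠ 0 := fun a => hi (by rw [hc', a, zero_smul])
  exact ⟨c'⁻¹ * c, by rw [mul_smul, ← hc, hc', inv_smul_smul₀ c0]⟩

omit d in
theorem exists_iso (n : A ≠ 1) (hN : IsNilpotent (A - 1)) : ∃ u, u ≠ 0 ∧ u ⬝ᵥ φ ∘ u = 0 ∧ A *ᵥ u = u := by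
  classical
  have a := Nat.find_spec hN
  have b := fun m => Nat.find_min hN (m := m)
  generalize Nat.find hN = k at a b
  rcases k with _ | _ | k
  · simp at a
  · exact absurd (sub_eq_zero.1 (by simpa using a)) n
  obtain ⟨i, hi⟩ : ∃ i, (A - 1) ^ (k + 1) *ᵥ Pi.single i 1 ≠ 0 := by_contra fun a => b (k + 1) (by omega)
    (ext_of_mulVec_single fun i => (not_not.1 (not_exists.1 a i)).trans (zero_mulVec _).symm)
  have f : A *ᵥ ((A - 1) ^ (k + 1) *ᵥ Pi.single i 1) = (A - 1) ^ (k + 1) *ᵥ Pi.single i 1 := by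
    rw [← sub_eq_zero, ← one_mulVec ((A - 1) ^ (k + 1) *ᵥ Pi.single i 1), mulVec_mulVec, mul_one, ← sub_mulVec, mulVec_mulVec, ← pow_succ', a, zero_mulVec]
  refine ⟨_, hi, ?_, f⟩
  have := perp hA f ((A - 1) ^ k *ᵥ Pi.single i 1)
  rwa [mulVec_mulVec, ← pow_succ'] at this

end Iso3
end H5
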